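import Cfsg.Agent.Lib.Helper97.McL.Basic

/-! Rung ADD of the S5075 ladder: an orbit of centres together with `0` is closed under
addition. -/

set_option autoImplicit false
set_option linter.unusedSimpArgs false

namespace Cfsg.Agent.Lib.Helper97.McL

variable {F A B : Type*} [Field F] [AddCommGroup A] [Module F A] [AddCommGroup B] [Module F B]
variable {pr : A →ₗ[F] B →ₗ[F] F} {S : Set (A × B)}

private theorem ADD_L (h : TS pr S) {a b c : A} {χ f : B} (hf : (a, f) ∈ S) (hc : (c, χ) ∈ S)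
    (h1 : pr c f ≠ 0) (h2 : pr b χ ≠ 0) (h3 : pr (a + b) χ ≠ 0) : Conn pr S b (a + b) := by
  obtain ⟨k, hk⟩ : ∃ k : F, pr b f - k * pr c f * pr b χ ≠ 0 := by
    by_cases hb : pr b f = 0
    · exact ⟨1, by rw [hb]; simpa using ⟨h1, h2⟩⟩
    · exact ⟨0, by simpa using hb⟩
  have hq := h.conjk hc hf k
  have hb' : pr b (f - (k * pr c f) • χ) = pr b f - k * pr c f * pr b χ := by
    simp
  have m1 := Conn.stepk h (Conn.refl (pr := pr) (S := S) b) hq (pr b (f - (k * pr c f) • χ))⁻¹
  rw [inv_mul_cancel₀ (by rw [hb']; exact hk), one_smul] at m1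
  have m2 := Conn.stepk h m1 hc (-(k * pr a χ) / pr (a + b) χ)
  have e : b + (a + (k * pr a χ) • c) +
      (-(k * pr a χ) / pr (a + b) χ * pr (b + (a + (k * pr a χ) • c)) χ) • c = a + b := by
    have e1 : pr (b + (a + (k * pr a χ) • c)) χ = pr (a + b) χ := by
      simp [h.iso _ _ hc, add_comm]
    rw [e1, div_mul_cancel₀ _ h3]
    module
  rwa [e] at m2

private theorem ADD_symm (hP : PerpSymm pr S) {a c : A} (ha : ctr S a) (hc : ctr S c)
    (hp : perp pr S a c) : perp pr S c a := by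
  by_contra hn
  exact (hP c a hc ha hn).1 hp

private theorem ADD_final (h : TS pr S) (h2 : (2 : F) ≠ 0) {a b c₀ d : A} {δ f : B}
    (hd : (d, δ) ∈ S) (h1 : pr (a + b) δ ≠ 0) (h3 : pr b δ = 0) (h4 : ¬ perp pr S c₀ d)
    (h5 : ¬ perp pr S c₀ b) (h6 : perp pr S c₀ (a + b)) (hf : (a, f) ∈ S) (h7 : pr c₀ f ≠ 0) :
    Conn pr S b (a + b) := by
  obtain ⟨χ₀, hχ₀, e1, e2⟩ := two_avoid h h4 h5
  obtain ⟨k, hk0, hk⟩ : ∃ k : F, k ≠ 0 ∧ pr c₀ f + k * pr c₀ δ * pr d f ≠ 0 := by
    by_cases hh : pr c₀ f + 1 * pr c₀ δ * pr d f = 0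
    · refine ⟨-1, by simp, ?_⟩
      intro hh'
      apply h7
      have : (2 : F) * pr c₀ f = 0 := by linear_combination hh + hh'
      exact (mul_eq_zero.1 this).resolve_left h2
    · exact ⟨1, one_ne_zero, hh⟩
  have hq := h.conjk hd hχ₀ k
  refine ADD_L h hf hq ?_ ?_ ?_
  · simpa only [map_add, map_smul, LinearMap.add_apply, LinearMap.smul_apply, smul_eq_mul] using hk
  · simpa only [map_sub, map_smul, h3, smul_eq_mul, mul_zero, sub_zero] using e2
  · have e3 := h6 χ₀ hχ₀
    rw [map_sub, map_smul, e3, zero_sub, smul_eq_mul]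
    exact neg_ne_zero.2 (mul_ne_zero (mul_ne_zero hk0 e1) h1)

private theorem ADD_aux (h : TS pr S) (h2 : (2 : F) ≠ 0) (hP : PerpSymm pr S) (hD : Diam2 pr S)
    {a b d : A} {δ : B} (ha : ctr S a) (hab : Conn pr S a b) (hp : perp pr S a b)
    (hd : (d, δ) ∈ S) (h1 : pr (a + b) δ ≠ 0) (h3 : pr b δ = 0) : Conn pr S a (a + b) := by
  have hb : ctr S b := hab.isCtr h ha
  have hdc : ctr S d := ⟨δ, hd⟩
  have haδ : pr a δ ≠ 0 := by
    intro e
    apply h1
    rw [map_add, LinearMap.add_apply, e, h3, add_zero]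
  have hda : ¬ perp pr S d a := fun hh => haδ (hh δ hd)
  have had : ¬ perp pr S a d := (hP d a hdc ha hda).1
  by_cases hbd : perp pr S b d
  · obtain ⟨c₀, hc₀, hac, hbc⟩ := hD a b ha hab
    have hcb : ¬ perp pr S c₀ b := (hP b c₀ hb hc₀ hbc).1
    by_cases hcab : perp pr S c₀ (a + b)
    · by_cases hcd : perp pr S c₀ d
      · obtain ⟨f, hf, e1, e2⟩ := two_avoid h had hac
        have hq := h.conj _ _ _ _ hf hd
        have hbf : pr b f = 0 := hp f hf
        have haf : pr a f = 0 := h.iso _ _ hf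
        have hc₀δ : pr c₀ δ = 0 := ADD_symm hP hc₀ hdc hcd δ hd
        have hd' : ¬ perp pr S (d + pr d f • a) c₀ := by
          intro hh
          have := hh _ hq
          rw [map_sub, map_smul, hc₀δ, zero_sub, smul_eq_mul] at this
          exact (neg_ne_zero.2 (mul_ne_zero haδ e2)) this
        have hcd' : ¬ perp pr S c₀ (d + pr d f • a) := (hP _ _ ⟨_, hq⟩ hc₀ hd').1
        refine hab.trans (ADD_final h h2 hq ?_ ?_ hcd' hcb hcab hf e2)
        · rw [map_sub, map_smul]
          simpa only [map_add, LinearMap.add_apply, haf, hbf, smul_eq_mul, add_zero, mul_zero,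
            sub_zero] using h1
        · rw [map_sub, map_smul, h3, hbf, smul_eq_mul, mul_zero, sub_zero]
      · unfold perp at hac
        push Not at hac
        obtain ⟨f, hf, e2⟩ := hac
        exact hab.trans (ADD_final h h2 hd h1 h3 hcd hcb hcab hf e2)
    · obtain ⟨χ, hχ, e1, e2⟩ := two_avoid h hcb hcab
      unfold perp at hac
      push Not at hac
      obtain ⟨f, hf, e3⟩ := hac
      exact hab.trans (ADD_L h hf hχ e3 e1 e2)
  · unfold perp at hbd
    push Not at hbd
    obtain ⟨ψ, hψ, e⟩ := hbd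
    have := ADD_L h (b := a) hψ hd e haδ (by rwa [add_comm])
    rwa [add_comm] at this

theorem addClosed (h : TS pr S) (h2 : (2 : F) ≠ 0) (hP : PerpSymm pr S) (hD : Diam2 pr S)
    (hN : NoShift pr S) : AddClosed pr S := by
  intro a b ha hab hne
  have hb : ctr S b := hab.isCtr h ha
  by_cases hp : perp pr S a b
  · have hnk : a + b ∉ comK pr S := by
      intro hk
      apply hne
      have hb' : ctr S (a + -(a + b)) := by
        obtain ⟨ψ, hψ⟩ := hb
        have := h.smul _ _ hψ (-1) 1 (by simp) one_ne_zero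
        refine ⟨(1 : F) • ψ, ?_⟩
        have e : a + -(a + b) = (-1 : F) • b := by module
        rwa [e]
      have := hN a (-(a + b)) ha hb' ((comK pr S).neg_mem hk)
      exact neg_eq_zero.1 this
    have : ∃ d δ, (d, δ) ∈ S ∧ pr (a + b) δ ≠ 0 := by
      by_contra hh
      push Not at hh
      exact hnk hh
    obtain ⟨d, δ, hd, h1⟩ := this
    by_cases hbδ : pr b δ = 0
    · exact ADD_aux h h2 hP hD ha hab hp hd h1 hbδ
    · by_cases haδ : pr a δ = 0
      · have := ADD_aux h h2 hP hD hb (hab.symm h) (ADD_symm hP ha hb hp) hd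
          (by rwa [add_comm]) haδ
        rw [add_comm] at this
        exact hab.trans this
      · have hda : ¬ perp pr S d a := fun hh => haδ (hh δ hd)
        have had : ¬ perp pr S a d := (hP d a ⟨δ, hd⟩ ha hda).1
        unfold perp at had
        push Not at had
        obtain ⟨f, hf, e⟩ := had
        exact hab.trans (ADD_L h hf hd e hbδ h1)
  · unfold perp at hp
    push Not at hp
    obtain ⟨f, hf, e⟩ := hp
    have := Conn.stepk h hab hf (pr b f)⁻¹
    rwa [inv_mul_cancel₀ e, one_smul, add_comm] at this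

end Cfsg.Agent.Lib.Helper97.McL
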