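import Cfsg.Agent.Lib.Helper97.McL.Basic

/-! Rung D2 of the S5075 ladder: two centres of one orbit have a common neighbour. -/

set_option autoImplicit false

namespace Cfsg.Agent.Lib.Helper97.McL

variable {F A B : Type*} [Field F] [AddCommGroup A] [Module F A] [AddCommGroup B] [Module F B]
variable {pr : A →ₗ[F] B →ₗ[F] F} {S : Set (A × B)}

theorem D2_not_perp_iff {a x : A} : ¬ perp pr S a x ↔ ∃ φ, (a, φ) ∈ S ∧ pr x φ ≠ 0 := by
  unfold perp
  push Not
  rfl

theorem diam2 (h : TS pr S) (hP : PerpSymm pr S) : Diam2 pr S := by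
  intro a b ha hc
  induction hc with
  | refl =>
    obtain ⟨φ, hφ⟩ := ha
    obtain ⟨c, χ, hχ, e1, _⟩ := h.partner _ _ hφ
    have : ¬ perp pr S a c := D2_not_perp_iff.2 ⟨φ, hφ, e1⟩
    exact ⟨c, ⟨χ, hχ⟩, this, this⟩
  | @smul b l _ hl ih =>
    obtain ⟨c, hc, h1, h2⟩ := ih
    exact ⟨c, hc, h1, fun hh => h2 ((perp_smul_left h hl).1 hh)⟩
  | @step b x ξ hab hx ih =>
    obtain ⟨c, hc, h1, h2⟩ := ih
    have hb : ctr S b := hab.isCtr h ha
    by_cases hz : pr b ξ = 0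
    · rw [hz, zero_smul, add_zero]
      exact ⟨c, hc, h1, h2⟩
    have hb' : ctr S (b + pr b ξ • x) := (Conn.step x ξ hab hx).isCtr h ha
    -- `b ~ b'`
    have hxb : ¬ perp pr S x b := D2_not_perp_iff.2 ⟨ξ, hx, hz⟩
    have hbx : ¬ perp pr S b x := (hP x b ⟨ξ, hx⟩ hb hxb).1
    obtain ⟨η, hη, e1⟩ := D2_not_perp_iff.1 hbx
    have hbb' : ¬ perp pr S b (b + pr b ξ • x) := by
      refine D2_not_perp_iff.2 ⟨η, hη, ?_⟩
      simp only [map_add, map_smul, LinearMap.add_apply, LinearMap.smul_apply, h.iso _ _ hη,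
        zero_add, smul_eq_mul]
      exact mul_ne_zero hz e1
    have hb'b : ¬ perp pr S (b + pr b ξ • x) b := (hP _ _ hb hb' hbb').1
    by_cases c1 : perp pr S (b + pr b ξ • x) c
    · by_cases c2 : perp pr S a b
      · -- take `c + b`
        obtain ⟨ψ, hψ, e2⟩ := D2_not_perp_iff.1 h2
        have hcb : Conn pr S c (c + b) := by
          have := Conn.stepk h (Conn.refl (pr := pr) (S := S) c) hψ (pr c ψ)⁻¹
          rwa [inv_mul_cancel₀ e2, one_smul] at this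
        refine ⟨c + b, hcb.isCtr h hc, ?_, ?_⟩
        · obtain ⟨φ, hφ, e3⟩ := D2_not_perp_iff.1 h1
          refine D2_not_perp_iff.2 ⟨φ, hφ, ?_⟩
          simpa [c2 φ hφ] using e3
        · obtain ⟨η', hη', e3⟩ := D2_not_perp_iff.1 hb'b
          refine D2_not_perp_iff.2 ⟨η', hη', ?_⟩
          simpa [c1 η' hη'] using e3
      · exact ⟨b, hb, c2, hb'b⟩
    · exact ⟨c, hc, h1, c1⟩

end Cfsg.Agent.Lib.Helper97.McL
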