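import Cfsg.Agent.Lib.Helper97.McL.Basic

/-! Rung DEC of the S5075 ladder: the group-theoretic bookkeeping of the decomposition. -/

set_option autoImplicit false

namespace Cfsg.Agent.Lib.Helper97.McL

open Module

variable {K V : Type*} [Field K] [AddCommGroup V] [Module K V]

/-- the subgroup of all `g` with `g U = U`. -/
def DEC_stab (U : Submodule K V) : Subgroup (V ≃ₗ[K] V) where
  carrier := {g | ∀ v ∈ U, g v ∈ U ∧ g⁻¹ v ∈ U}
  mul_mem' := by
    intro g g' hg hg' v hv
    refine ⟨?_, ?_⟩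
    · rw [LinearEquiv.mul_apply]
      exact (hg _ (hg' v hv).1).1
    · rw [mul_inv_rev, LinearEquiv.mul_apply]
      exact (hg' _ (hg v hv).2).2
  one_mem' := by
    intro v hv
    simpa using hv
  inv_mem' := by
    intro g hg v hv
    rw [inv_inv]
    exact ⟨(hg v hv).2, (hg v hv).1⟩

/-- the subgroup of all `g` fixing `U` pointwise. -/
def DEC_fix (U : Submodule K V) : Subgroup (V ≃ₗ[K] V) where
  carrier := {g | ∀ v ∈ U, g v = v}
  mul_mem' := by
    intro g g' hg hg' v hv
    rw [LinearEquiv.mul_apply, hg' v hv, hg v hv]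
  one_mem' := by
    intro v _
    rfl
  inv_mem' := by
    intro g hg v hv
    have := hg v hv
    calc g⁻¹ v = g⁻¹ (g v) := by rw [this]
      _ = v := by simp

theorem DEC_apply {a : V} {φ : Module.Dual K V} (h : φ a = 0) (x : V) :
    LinearEquiv.transvection h x = x + φ x • a := rfl

theorem DEC_inv_apply {a : V} {φ : Module.Dual K V} (h : φ a = 0) (x : V) :
    (LinearEquiv.transvection h)⁻¹ x = x - φ x • a := by
  have h' : φ (-a) = 0 := by simp [h]
  rw [LinearEquiv.transvection.inv_eq h h', DEC_apply]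
  simp [sub_eq_add_neg]

theorem decomp_core {n : ℕ} (H : Subgroup (V ≃ₗ[K] V)) (W : Fin (n + 1) → Submodule K V)
    (X : Fin n → Set (V × Module.Dual K V))
    (hint : DirectSum.IsInternal W)
    (hH : H = Subgroup.closure (⋃ j, tvSet (X j)))
    (hXW : ∀ j a φ, (a, φ) ∈ X j → a ∈ W j.succ)
    (hXk : ∀ j a φ, (a, φ) ∈ X j → ∀ i, i ≠ j.succ → ∀ v ∈ W i, φ v = 0) :
    (∀ h ∈ H, ∀ i, (W i).map (h : V →ₗ[K] V) = W i) ∧
    (∀ j, Subgroup.closure (tvSet (X j)) ≤ H ∧
      ((Subgroup.closure (tvSet (X j))).subgroupOf H).Normal) ∧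
    ⨆ j, Subgroup.closure (tvSet (X j)) = H ∧
    (∀ j, Subgroup.closure (tvSet (X j)) ⊓
      (⨆ j' ∈ {j' : Fin n | j' ≠ j}, Subgroup.closure (tvSet (X j'))) = ⊥) ∧
    (∀ j j', j ≠ j' → ∀ a ∈ Subgroup.closure (tvSet (X j)), ∀ b ∈ Subgroup.closure (tvSet (X j')),
      a * b = b * a) ∧
    (∀ j, ∀ h ∈ Subgroup.closure (tvSet (X j)), ∀ i : Fin (n + 1), i ≠ j.succ →
      ∀ v ∈ W i, h v = v) := by
  -- pointwise fixing
  have hfix : ∀ j (i : Fin (n + 1)), i ≠ j.succ →
      Subgroup.closure (tvSet (X j)) ≤ DEC_fix (W i) := by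
    intro j i hi
    rw [Subgroup.closure_le]
    rintro t ⟨a, φ, hq, h, rfl⟩ v hv
    rw [DEC_apply, hXk j a φ hq i hi v hv, zero_smul, add_zero]
  -- stabilising
  have hstab : ∀ j (i : Fin (n + 1)), Subgroup.closure (tvSet (X j)) ≤ DEC_stab (W i) := by
    intro j i
    rw [Subgroup.closure_le]
    rintro t ⟨a, φ, hq, h, rfl⟩ v hv
    rw [DEC_apply, DEC_inv_apply]
    by_cases hi : i = j.succ
    · subst hi
      exact ⟨(W _).add_mem hv ((W _).smul_mem _ (hXW j a φ hq)),
        (W _).sub_mem hv ((W _).smul_mem _ (hXW j a φ hq))⟩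
    · rw [hXk j a φ hq i hi v hv, zero_smul, add_zero, sub_zero]
      exact ⟨hv, hv⟩
  have hsup : ⨆ j, Subgroup.closure (tvSet (X j)) = H := by
    rw [hH, Subgroup.closure_iUnion]
  have hle : ∀ j, Subgroup.closure (tvSet (X j)) ≤ H := fun j => by
    rw [← hsup]
    exact le_iSup (fun j => Subgroup.closure (tvSet (X j))) j
  have hHstab : ∀ i, H ≤ DEC_stab (W i) := fun i => by
    rw [← hsup]
    exact iSup_le fun j => hstab j i
  -- commuting
  have hgen_comm : ∀ j j', j ≠ j' → ∀ t ∈ tvSet (X j), ∀ t' ∈ tvSet (X j'), t * t' = t' * t := by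
    rintro j j' hjj t ⟨a, φ, hq, h, rfl⟩ t' ⟨b, ψ, hq', h', rfl⟩
    have e1 : φ b = 0 :=
      hXk j a φ hq j'.succ (fun e => hjj (Fin.succ_injective _ e).symm) b (hXW j' b ψ hq')
    have e2 : ψ a = 0 :=
      hXk j' b ψ hq' j.succ (fun e => hjj (Fin.succ_injective _ e)) a (hXW j a φ hq)
    ext x
    simp only [LinearEquiv.mul_apply, DEC_apply, map_add, map_smul, e1, e2, smul_eq_mul, mul_zero,
      add_zero]
    module
  have hcomm : ∀ j j', j ≠ j' → ∀ a ∈ Subgroup.closure (tvSet (X j)),
      ∀ b ∈ Subgroup.closure (tvSet (X j')), a * b = b * a := by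
    intro j j' hjj a ha b hb
    have h1 : Subgroup.closure (tvSet (X j')) ≤
        Subgroup.centralizer (Subgroup.closure (tvSet (X j)) : Set (V ≃ₗ[K] V)) := by
      rw [Subgroup.closure_le]
      intro t' ht'
      rw [SetLike.mem_coe, Subgroup.mem_centralizer_iff]
      intro g hg
      have h2 : Subgroup.closure (tvSet (X j)) ≤ Subgroup.centralizer {t'} := by
        rw [Subgroup.closure_le]
        intro t ht
        rw [SetLike.mem_coe, Subgroup.mem_centralizer_iff]
        intro s hs
        rw [Set.mem_singleton_iff] at hs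
        subst hs
        exact (hgen_comm j j' hjj t ht s ht').symm
      have h3 := Subgroup.mem_centralizer_iff.1 (h2 hg) t' rfl
      exact h3.symm
    exact Subgroup.mem_centralizer_iff.1 (h1 hb) a ha
  refine ⟨?_, ?_, hsup, ?_, hcomm, ?_⟩
  · intro h hh i
    apply le_antisymm
    · rintro _ ⟨v, hv, rfl⟩
      exact (hHstab i hh v hv).1
    · intro v hv
      refine ⟨h⁻¹ v, (hHstab i hh v hv).2, ?_⟩
      simp
  · intro j
    refine ⟨hle j, ?_⟩
    rw [Subgroup.normal_subgroupOf_iff_le_normalizer (hle j), ← hsup]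
    refine iSup_le fun j' => ?_
    by_cases hjj : j' = j
    · subst hjj
      exact Subgroup.le_normalizer
    · intro g hg
      rw [Subgroup.mem_normalizer_iff]
      intro x
      constructor
      · intro hx
        have := hcomm j' j hjj g hg x hx
        rw [this, mul_assoc, mul_inv_cancel, mul_one]
        exact hx
      · intro hx
        have h5 := hcomm j' j hjj g hg _ hx
        have h6 : g * x * g⁻¹ = x := by
          have : g * (g * x * g⁻¹) = g * x := by
            rw [h5]; group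
          exact mul_left_cancel this
        rw [← h6]
        exact hx
  · intro j
    rw [eq_bot_iff]
    rintro g ⟨hg1, hg2⟩
    have h1 : (⨆ j' ∈ {j' : Fin n | j' ≠ j}, Subgroup.closure (tvSet (X j'))) ≤
        DEC_fix (W j.succ) := by
      refine iSup_le fun j' => iSup_le fun hj' => ?_
      exact hfix j' j.succ (fun e => hj' (Fin.succ_injective _ e).symm)
    have hall : ∀ i, ∀ v ∈ W i, g v = v := by
      intro i v hv
      by_cases hi : i = j.succ
      · subst hi
        exact h1 hg2 v hv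
      · exact hfix j i hi hg1 v hv
    rw [Subgroup.mem_bot]
    have htop : (⨆ i, W i) = ⊤ := hint.submodule_iSup_eq_top
    have hle' : (⨆ i, W i) ≤ LinearMap.eqLocus (g : V →ₗ[K] V) LinearMap.id := by
      refine iSup_le fun i v hv => ?_
      rw [LinearMap.mem_eqLocus]
      exact hall i v hv
    ext v
    have : v ∈ LinearMap.eqLocus (g : V →ₗ[K] V) LinearMap.id := hle' (htop ▸ Submodule.mem_top)
    rw [LinearMap.mem_eqLocus] at this
    exact this
  · intro j h hh i hi v hv
    exact hfix j i hi hh v hv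

end Cfsg.Agent.Lib.Helper97.McL
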