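import Cfsg.Agent.Lib.Helper97.McL.Basic

/-! Rung NS of the S5075 ladder: two centres are never congruent modulo the common kernel. -/

set_option autoImplicit false
set_option linter.unusedSimpArgs false

namespace Cfsg.Agent.Lib.Helper97.McL

variable {F A B : Type*} [Field F] [AddCommGroup A] [Module F A] [AddCommGroup B] [Module F B]
variable {pr : A →ₗ[F] B →ₗ[F] F} {S : Set (A × B)}

private theorem NS_not_mem (h : TS pr S) {s : A} {φ : B} (hs : s ∈ comK pr S) : (s, φ) ∉ S := by
  intro hq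
  exact h.xorL (comK pr S) (fun a φ hq => Or.inr fun u hu => hu a φ hq) s φ hq hs
    (fun u hu => hu s φ hq)

private theorem NS_norm (h : TS pr S) {a c : A} {φ : B} (hq : (a, φ) ∈ S) (hne : pr c φ ≠ 0) :
    ∃ φ', (a, φ') ∈ S ∧ pr c φ' = 1 := by
  refine ⟨(pr c φ)⁻¹ • φ, ?_, ?_⟩
  · have := h.smul _ _ hq 1 (pr c φ)⁻¹ one_ne_zero (inv_ne_zero hne)
    rwa [one_smul] at this
  · rw [map_smul, smul_eq_mul, inv_mul_cancel₀ hne]

theorem noShift (h : TS pr S) (h2 : (2 : F) ≠ 0) (hP : PerpSymm pr S) : NoShift pr S := by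
  intro a s ⟨f₀, hf₀⟩ has hs
  by_contra hs0
  obtain ⟨c, χ₀, hc₀, hcf₀, haχ₀⟩ := h.partner a f₀ hf₀
  have hsk : ∀ x φ, (x, φ) ∈ S → pr s φ = 0 := hs
  have h1 : ¬ perp pr S c (a + s) := by
    intro hp
    have := hp χ₀ hc₀
    rw [map_add, LinearMap.add_apply, hsk _ _ hc₀, add_zero] at this
    exact haχ₀ this
  have h3 := (hP c (a + s) ⟨χ₀, hc₀⟩ has h1).1
  unfold perp at h3
  push Not at h3
  obtain ⟨f₁, hf₁, hcf₁⟩ := h3
  obtain ⟨f, hf, hcf⟩ := NS_norm h hf₀ hcf₀
  obtain ⟨f', hf', hcf'⟩ := NS_norm h hf₁ hcf₁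
  obtain ⟨χ, hc, haχ⟩ := NS_norm h hc₀ haχ₀
  have haf : pr a f = 0 := h.iso _ _ hf
  have hcχ : pr c χ = 0 := h.iso _ _ hc
  have hsf : pr s f = 0 := hsk _ _ hf
  have hsf' : pr s f' = 0 := hsk _ _ hf'
  have hsχ : pr s χ = 0 := hsk _ _ hc
  have haf' : pr a f' = 0 := by
    have := h.iso _ _ hf'
    rwa [map_add, LinearMap.add_apply, hsf', add_zero] at this
  by_cases hff : f' = f
  · subst hff
    have e1 := h.smul _ _ hf (-1) 1 (by simp) one_ne_zero
    rw [one_smul] at e1
    have e2 := h.addL _ _ _ hf' e1 (by simpa using hs0)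
    have e3 : a + s + (-1 : F) • a = s := by module
    rw [e3] at e2
    exact NS_not_mem h hs e2
  · have k1 := h.conj _ _ _ _ hc hf'
    have e1 : a + s + pr (a + s) χ • c = a + s + c := by
      simp [haχ, hsχ]
    have e1' : f' - pr c f' • χ = f' - χ := by simp [hcf']
    rw [e1, e1'] at k1
    have hf2 := h.smul _ _ hf 1 (-2) one_ne_zero (by simpa using h2)
    rw [one_smul] at hf2
    have k2 := h.conj _ _ _ _ hf2 k1
    have e2 : a + s + c + pr (a + s + c) ((-2 : F) • f) • a = -a + s + c := by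
      simp only [map_add, map_smul, LinearMap.add_apply, haf, hsf, hcf, smul_eq_mul]
      module
    have e2' : f' - χ - pr a (f' - χ) • ((-2 : F) • f) = f' - χ - (2 : F) • f := by
      simp only [map_sub, haf', haχ]
      module
    rw [e2, e2'] at k2
    have k3 := h.conj _ _ _ _ hc k2
    have e3 : -a + s + c + pr (-a + s + c) χ • c = -a + s := by
      simp only [map_add, map_neg, LinearMap.add_apply, LinearMap.neg_apply, haχ, hsχ, hcχ]
      module
    have e3' : f' - χ - (2 : F) • f - pr c (f' - χ - (2 : F) • f) • χ = f' - (2 : F) • f := by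
      simp only [map_sub, map_smul, hcf', hcχ, hcf, smul_eq_mul]
      module
    rw [e3, e3'] at k3
    have k4 := h.smul _ _ k3 (-1) (-1) (by simp) (by simp)
    have hne : (2 : F) • (f' - f) ≠ 0 := by
      intro e
      rcases smul_eq_zero.1 e with e | e
      · exact h2 e
      · exact hff (sub_eq_zero.1 e)
    have k5 : (s, (2 : F) • (f' - f)) ∈ S := by
      refine h.mul3 _ _ _ _ _ _ s ((2 : F) • (f' - f)) hf' k4 hf2 ?_ ?_ ?_ ?_ ?_ ?_ hs0 hne ?_ ?_ ?_
      · simp [haf, hsf, haf', hsf']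
      · simp [haf, hsf, haf', hsf']
      · simp [haf, hsf, haf', hsf']
      · simp [haf, hsf, haf', hsf']
      · simp [haf, hsf, haf', hsf']
      · simp [haf, hsf, haf', hsf']
      · simp [haf, hsf, haf', hsf']
      · intro x
        simp only [map_add, map_sub, map_smul, map_neg, smul_eq_mul]
        module
      · intro ψ
        simp only [map_add, map_sub, map_smul, map_neg, smul_eq_mul, LinearMap.add_apply,
          LinearMap.neg_apply, LinearMap.smul_apply]
        module
    exact NS_not_mem h hs k5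

end Cfsg.Agent.Lib.Helper97.McL
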