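import Cfsg.Agent.Lib.Helper97.McL.Basic

/-! Rung P of the S5075 ladder: symmetry of `perp`. -/

set_option autoImplicit false

namespace Cfsg.Agent.Lib.Helper97.McL

variable {F A B : Type*} [Field F] [AddCommGroup A] [Module F A] [AddCommGroup B] [Module F B]
variable {pr : A →ₗ[F] B →ₗ[F] F} {S : Set (A × B)}

/-- a hyperbolic pair lies in one orbit. -/
theorem P_conn_of_hyp (h : TS pr S) {a c : A} {φ χ : B} (h1 : (a, φ) ∈ S) (h2 : (c, χ) ∈ S)
    (h3 : pr c φ ≠ 0) (h4 : pr a χ ≠ 0) : Conn pr S a c := by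
  have s1 := Conn.stepk h (Conn.refl (pr := pr) (S := S) a) h2 (pr a χ)⁻¹
  rw [inv_mul_cancel₀ h4, one_smul] at s1
  have s2 := Conn.stepk h s1 h1 (-(pr c φ)⁻¹)
  have e : a + c + (-(pr c φ)⁻¹ * pr (a + c) φ) • a = c := by
    have : -(pr c φ)⁻¹ * pr (a + c) φ = -1 := by
      simp only [map_add, LinearMap.add_apply, h.iso _ _ h1, zero_add]
      field_simp
    rw [this]
    module
  rwa [e] at s2

/-- if `c ∉ a^⊥` but `a ∈ c^⊥` then `c` has strictly fewer axes than `a`. -/
theorem P_card_lt [Finite B] (h : TS pr S) {a c : A} (h1 : ¬ perp pr S a c) (h2 : perp pr S c a) :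
    Nat.card {φ // (c, φ) ∈ S} < Nat.card {φ // (a, φ) ∈ S} := by
  unfold perp at h1
  push Not at h1
  obtain ⟨φ, hφ, hc⟩ := h1
  have hsub : {χ | (c, χ) ∈ S} ⊂ {χ | (a, χ) ∈ S} := by
    refine ⟨fun χ hχ => h.half hφ hχ hc (h2 χ hχ), fun hh => ?_⟩
    exact hc (h.iso _ _ (hh hφ))
  have := Set.ncard_lt_ncard hsub (Set.toFinite _)
  rw [← Nat.card_coe_set_eq, ← Nat.card_coe_set_eq] at this
  exact this

theorem perpSymm [Finite B] (h : TS pr S) : PerpSymm pr S := by
  intro a c ha hc hac
  by_cases hca : perp pr S c a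
  · exfalso
    have hlt := P_card_lt h hac hca
    have hnc : ¬ Conn pr S a c := fun hh => by
      rw [card_axes h hh] at hlt
      exact lt_irrefl _ hlt
    -- every member of the orbit of `a` is in `c^⊥`
    have hall : ∀ a', Conn pr S a a' → perp pr S c a' := by
      intro a' ha'
      by_contra hn
      by_cases hp : perp pr S a' c
      · have h1 := P_card_lt h hn hp
        rw [← card_axes h ha'] at h1
        exact lt_asymm h1 hlt
      · have hn' := hn
        have hp' := hp
        unfold perp at hn' hp'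
        push Not at hn' hp'
        obtain ⟨χ, hχ, e1⟩ := hn'
        obtain ⟨φ', hφ', e2⟩ := hp'
        exact hnc (ha'.trans (P_conn_of_hyp h hφ' hχ e2 e1))
    obtain ⟨χ, hχ⟩ := hc
    have hac' := hac
    unfold perp at hac'
    push Not at hac'
    obtain ⟨φ, hφ, hcφ⟩ := hac'
    have haχ : (a, χ) ∈ S := h.half hφ hχ hcφ (hca χ hχ)
    let U : Submodule F A := Submodule.span F {a' | Conn pr S a a'}
    have hUk : ∀ u ∈ U, pr u χ = 0 := by
      intro u hu
      induction hu using Submodule.span_induction with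
      | mem y hy => exact hall y hy χ hχ
      | zero => simp
      | add y z _ _ hy hz => simp [hy, hz]
      | smul k y _ hy => simp [hy]
    refine h.xorL U ?_ a χ haχ (Submodule.subset_span (Conn.refl _)) hUk
    intro x ξ hx
    by_cases hk : ∀ a', Conn pr S a a' → pr a' ξ = 0
    · right
      intro u hu
      induction hu using Submodule.span_induction with
      | mem y hy => exact hk y hy
      | zero => simp
      | add y z _ _ hy hz => simp [hy, hz]
      | smul k y _ hy => simp [hy]
    · left
      push Not at hk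
      obtain ⟨a', ha', hne⟩ := hk
      have m1 : a' + pr a' ξ • x ∈ U := Submodule.subset_span (Conn.step x ξ ha' hx)
      have m2 : a' ∈ U := Submodule.subset_span ha'
      have m3 : pr a' ξ • x ∈ U := by
        have := U.sub_mem m1 m2
        simpa using this
      exact (U.smul_mem_iff hne).1 m3
  · refine ⟨hca, ?_⟩
    have hac' := hac
    have hca' := hca
    unfold perp at hac' hca'
    push Not at hac' hca'
    obtain ⟨φ, hφ, e1⟩ := hac'
    obtain ⟨χ, hχ, e2⟩ := hca'
    exact P_conn_of_hyp h hφ hχ e1 e2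

end Cfsg.Agent.Lib.Helper97.McL
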