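import Cfsg.Agent.Lib.Helper97.McL.Defs
import Cfsg.Prelude.Def_Solvable
import Cfsg.Agent.S0199

/-!
Rung PART of the ladder for S5075 (written by helper71): every transvection of `H` has a partner
when `O_p(H) = 1` (Baer-Suzuki).
-/

set_option autoImplicit false

namespace Cfsg.Agent.Lib.Helper97.McL

/-- the stabilizer of the chain `0 ≤ W₁ ≤ W₂ ≤ V` -/
private def partFlag {K V : Type*} [Field K] [AddCommGroup V] [Module K V]
    (W₁ W₂ : Submodule K V) (_hW : W₁ ≤ W₂) : Subgroup (V ≃ₗ[K] V) where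
  carrier := {g | (∀ v, g v - v ∈ W₂) ∧ (∀ w ∈ W₂, g w - w ∈ W₁) ∧ ∀ w ∈ W₁, g w = w}
  one_mem' := by
    refine ⟨fun v => ?_, fun w _ => ?_, fun w _ => rfl⟩
    · show v - v ∈ W₂
      rw [sub_self]; exact W₂.zero_mem
    · show w - w ∈ W₁
      rw [sub_self]; exact W₁.zero_mem
  mul_mem' := by
    rintro g h ⟨hg1, hg2, hg3⟩ ⟨hh1, hh2, hh3⟩
    refine ⟨fun v => ?_, fun w hw => ?_, fun w hw => ?_⟩
    · show g (h v) - v ∈ W₂
      have e : g (h v) - v = (g (h v) - h v) + (h v - v) := by abel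
      rw [e]
      exact W₂.add_mem (hg1 _) (hh1 _)
    · show g (h w) - w ∈ W₁
      have e : g (h w) - w = (g (h w) - h w) + (h w - w) := by abel
      have hhw : h w ∈ W₂ := by
        have e2 : h w = (h w - w) + w := by abel
        rw [e2]
        exact W₂.add_mem (hh1 _) hw
      rw [e]
      exact W₁.add_mem (hg2 _ hhw) (hh2 _ hw)
    · show g (h w) = w
      rw [hh3 w hw, hg3 w hw]
  inv_mem' := by
    rintro g ⟨hg1, hg2, hg3⟩
    have h1 : ∀ v, g.symm v - v ∈ W₂ := by
      intro v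
      have h := hg1 (g.symm v)
      rw [LinearEquiv.apply_symm_apply] at h
      have e : g.symm v - v = -(v - g.symm v) := by abel
      rw [e]
      exact W₂.neg_mem h
    refine ⟨h1, fun w hw => ?_, fun w hw => ?_⟩
    · show g.symm w - w ∈ W₁
      have hgw : g.symm w ∈ W₂ := by
        have e2 : g.symm w = (g.symm w - w) + w := by abel
        rw [e2]
        exact W₂.add_mem (h1 _) hw
      have h := hg2 _ hgw
      rw [LinearEquiv.apply_symm_apply] at h
      have e : g.symm w - w = -(w - g.symm w) := by abel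
      rw [e]
      exact W₁.neg_mem h
    · show g.symm w = w
      rw [LinearEquiv.symm_apply_eq, hg3 w hw]

private theorem partFlag_isPGroup {p : ℕ} [hp : Fact p.Prime] {V : Type*} [AddCommGroup V]
    [Module (ZMod p) V] (W₁ W₂ : Submodule (ZMod p) V) (hW : W₁ ≤ W₂) :
    IsPGroup p (partFlag W₁ W₂ hW) := by
  rintro ⟨g, hg1, hg2, hg3⟩
  refine ⟨2, ?_⟩
  apply Subtype.ext
  show g ^ (p ^ 2) = 1
  have hpow : ∀ (k : ℕ) (v : V), (g ^ k) v =
      v + k • (g v - v) + (k.choose 2) • (g (g v - v) - (g v - v)) := by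
    intro k v
    induction k with
    | zero => simp
    | succ k ih =>
      have h3 := hg3 _ (hg2 _ (hg1 v))
      have hc : (k + 1).choose 2 = k + k.choose 2 := by
        rw [Nat.choose_succ_succ' k 1, Nat.choose_one_right]
      have e1 : g v = v + (g v - v) := by abel
      have e2 : g (g v - v) = (g v - v) + (g (g v - v) - (g v - v)) := by abel
      rw [pow_succ', LinearEquiv.mul_apply, ih, map_add, map_add, map_nsmul, map_nsmul, h3, hc]
      generalize g (g v - v) - (g v - v) = d₂ at e2 ⊢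
      rw [e2]
      generalize g v - v = d₁ at e1 ⊢
      rw [e1]
      simp only [add_nsmul, nsmul_add, one_nsmul]
      abel
  have hz : ∀ (n : ℕ) (x : V), p ∣ n → n • x = 0 := by
    rintro n x ⟨m, rfl⟩
    rw [← Nat.cast_smul_eq_nsmul (ZMod p), Nat.cast_mul, ZMod.natCast_self, zero_mul, zero_smul]
  ext v
  rw [hpow, hz _ _ (dvd_pow_self p two_ne_zero),
    hz _ _ (hp.out.dvd_choose_pow two_ne_zero (by
      have := hp.out.two_le
      nlinarith)), add_zero, add_zero]
  rfl

private theorem part_mem_flag {K V : Type*} [Field K] [AddCommGroup V] [Module K V]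
    {a b : V} {φ ψ : Module.Dual K V} (h1 : φ a = 0) (h2 : ψ b = 0) (h3 : φ b = 0)
    (hW : Submodule.span K {b} ≤ Submodule.span K {a, b}) :
    LinearEquiv.transvection h1 ∈ partFlag _ _ hW ∧ LinearEquiv.transvection h2 ∈ partFlag _ _ hW := by
  have haW : a ∈ Submodule.span K ({a, b} : Set V) := Submodule.subset_span (by simp)
  have hbW : b ∈ Submodule.span K ({b} : Set V) := Submodule.subset_span (by simp)
  have hφW : ∀ w ∈ Submodule.span K ({a, b} : Set V), φ w = 0 := by
    intro w hw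
    obtain ⟨x, y, rfl⟩ := Submodule.mem_span_pair.mp hw
    simp [h1, h3]
  have hψW : ∀ w ∈ Submodule.span K ({b} : Set V), ψ w = 0 := by
    intro w hw
    obtain ⟨x, rfl⟩ := Submodule.mem_span_singleton.mp hw
    simp [h2]
  constructor
  · refine ⟨fun v => ?_, fun w hw => ?_, fun w hw => ?_⟩
    · rw [LinearEquiv.transvection.apply, add_sub_cancel_left]
      exact Submodule.smul_mem _ _ haW
    · rw [LinearEquiv.transvection.apply, add_sub_cancel_left, hφW w hw, zero_smul]
      exact Submodule.zero_mem _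
    · rw [LinearEquiv.transvection.apply, hφW w (hW hw), zero_smul, add_zero]
  · refine ⟨fun v => ?_, fun w hw => ?_, fun w hw => ?_⟩
    · rw [LinearEquiv.transvection.apply, add_sub_cancel_left]
      exact hW (Submodule.smul_mem _ _ hbW)
    · rw [LinearEquiv.transvection.apply, add_sub_cancel_left]
      exact Submodule.smul_mem _ _ hbW
    · rw [LinearEquiv.transvection.apply, hψW w hw, zero_smul, add_zero]

theorem partner_Sg {p : ℕ} [Fact p.Prime] {V : Type*} [AddCommGroup V] [Module (ZMod p) V]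
    [Finite V] (H : Subgroup (V ≃ₗ[ZMod p] V)) (hOp : Cfsg.pCore p ↥H = ⊥)
    (a : V) (φ : Module.Dual (ZMod p) V) (h : (a, φ) ∈ Sg H) :
    ∃ b ψ, (b, ψ) ∈ Sg H ∧ prV (ZMod p) V b φ ≠ 0 ∧ prV (ZMod p) V a ψ ≠ 0 := by
  by_contra hcon
  push Not at hcon
  obtain ⟨ha0, hφ0, h0, htH⟩ := h
  change a ≠ 0 at ha0
  change φ ≠ 0 at hφ0
  change φ a = 0 at h0
  have hfinE : Finite (V ≃ₗ[ZMod p] V) :=
    Finite.of_injective (fun e : V ≃ₗ[ZMod p] V => (e : V → V)) DFunLike.coe_injective
  set t : ↥H := ⟨LinearEquiv.transvection h0, htH⟩ with ht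
  set X : Subgroup ↥H := Subgroup.zpowers t with hX
  -- a criterion
  have hcrit : ∀ (T : Subgroup (V ≃ₗ[ZMod p] V)), IsPGroup p T → ∀ g : ↥H,
      (t : V ≃ₗ[ZMod p] V) ∈ T → ((g * t * g⁻¹ : ↥H) : V ≃ₗ[ZMod p] V) ∈ T →
      IsPGroup p ↥(X ⊔ X.map (MulAut.conj g).toMonoidHom) := by
    intro T hT g h1 h2
    have hT' : IsPGroup p (T.subgroupOf H) := hT.comap_subtype
    refine hT'.to_le (sup_le ?_ ?_)
    · rw [hX, Subgroup.zpowers_le]
      exact h1
    · rw [hX, MonoidHom.map_zpowers, Subgroup.zpowers_le]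
      exact h2
  have hXp : IsPGroup p X := by
    have h1 := part_mem_flag (K := ZMod p) h0 h0 h0
      (Submodule.span_mono (by simp))
    have := hcrit _ (partFlag_isPGroup _ _ _) 1 h1.1 (by simpa using h1.1)
    exact this.to_le le_sup_left
  have hall : ∀ g : ↥H, IsPGroup p ↥(X ⊔ X.map (MulAut.conj g).toMonoidHom) := by
    intro g
    set b : V := (g : V ≃ₗ[ZMod p] V) a with hb
    set ψ : Module.Dual (ZMod p) V := φ.comp ((g : V ≃ₗ[ZMod p] V).symm : V →ₗ[ZMod p] V) with hψ
    have hψb : ψ b = 0 := by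
      show φ ((g : V ≃ₗ[ZMod p] V).symm ((g : V ≃ₗ[ZMod p] V) a)) = 0
      rw [LinearEquiv.symm_apply_apply, h0]
    have hconj : ((g * t * g⁻¹ : ↥H) : V ≃ₗ[ZMod p] V) = LinearEquiv.transvection hψb := by
      ext x
      show (g : V ≃ₗ[ZMod p] V) (LinearEquiv.transvection h0 ((g : V ≃ₗ[ZMod p] V).symm x)) = _
      rw [LinearEquiv.transvection.apply, LinearEquiv.transvection.apply, map_add, map_smul,
        LinearEquiv.apply_symm_apply]
      rfl
    have hS : (b, ψ) ∈ Sg H := by
      refine ⟨?_, ?_, hψb, ?_⟩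
      · show b ≠ 0
        intro h
        exact ha0 ((LinearEquiv.map_eq_zero_iff _).mp h)
      · show ψ ≠ 0
        intro h
        apply hφ0
        ext x
        have := congrArg (fun f : Module.Dual (ZMod p) V => f ((g : V ≃ₗ[ZMod p] V) x)) h
        simpa [hψ] using this
      · rw [← hconj]
        exact (g * t * g⁻¹ : ↥H).2
    by_cases hφb : φ b = 0
    · have h1 := part_mem_flag (K := ZMod p) h0 hψb hφb (Submodule.span_mono (by simp))
      exact hcrit _ (partFlag_isPGroup _ _ _) g h1.1 (by rw [hconj]; exact h1.2)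
    · have hψa : ψ a = 0 := hcon b ψ hS hφb
      have h1 := part_mem_flag (K := ZMod p) hψb h0 hψa (Submodule.span_mono (by simp))
      exact hcrit _ (partFlag_isPGroup _ _ _) g h1.2 (by rw [hconj]; exact h1.1)
  obtain ⟨N, hN, hNp, hXN⟩ := Cfsg.Agent.S0199.result X hXp hall
  have hbot : N = ⊥ := by
    rw [eq_bot_iff, ← hOp]
    exact le_sSup ⟨hN, hNp⟩
  have htN : t ∈ N := hXN (Subgroup.mem_zpowers t)
  rw [hbot, Subgroup.mem_bot] at htN
  have ht1 : LinearEquiv.transvection h0 = 1 := congrArg Subtype.val htN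
  apply hφ0
  ext x
  have h2 := congrArg (fun e : V ≃ₗ[ZMod p] V => e x) ht1
  simp only [LinearEquiv.transvection.apply] at h2
  have h3 : φ x • a = 0 := by
    have h4 : x + φ x • a = x := h2
    exact add_eq_left.mp h4
  rcases smul_eq_zero.mp h3 with h | h
  · exact h
  · exact absurd h ha0

end Cfsg.Agent.Lib.Helper97.McL
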