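import Cfsg.Agent.Lib.Helper97.McL.Basic

/-! Rungs RES and SPAN of the S5075 ladder. -/

set_option autoImplicit false

namespace Cfsg.Agent.Lib.Helper97.McL

open Module

variable {K V : Type*} [Field K] [AddCommGroup V] [Module K V]

theorem exists_resHom (W : Submodule K V) (G : Subgroup (V ≃ₗ[K] V))
    (hG : ∀ g ∈ G, ∀ w ∈ W, g w ∈ W) :
    ∃ ρ : ↥G →* (↥W ≃ₗ[K] ↥W), ∀ (g : ↥G) (v : ↥W), ((ρ g v : ↥W) : V) = (g : V ≃ₗ[K] V) (v : V) := by
  let r : ↥G → (↥W →ₗ[K] ↥W) := fun g =>
    ((g : V ≃ₗ[K] V) : V →ₗ[K] V).restrict (fun w hw => hG g g.2 w hw)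
  have hr : ∀ (g : ↥G) (v : ↥W), ((r g v : ↥W) : V) = (g : V ≃ₗ[K] V) (v : V) := fun g v => rfl
  let ρ0 : ↥G → (↥W ≃ₗ[K] ↥W) := fun g =>
    LinearEquiv.ofLinearMap (r g) (r g⁻¹)
      (by
        ext v
        simp [hr])
      (by
        ext v
        simp [hr])
  have hρ0 : ∀ (g : ↥G) (v : ↥W), ((ρ0 g v : ↥W) : V) = (g : V ≃ₗ[K] V) (v : V) := fun g v => rfl
  refine ⟨MonoidHom.mk' ρ0 ?_, fun g v => rfl⟩
  intro g g'
  ext v
  simp [hρ0, LinearEquiv.mul_apply]

theorem span_sup_comK [FiniteDimensional K V] (X : Set (V × Module.Dual K V))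
    (hd : Disjoint (Submodule.span K {φ | ctr (swp X) φ}) (comK (prV K V).flip (swp X))) :
    Submodule.span K {a | ctr X a} ⊔ comK (prV K V) X = ⊤ := by
  set W := Submodule.span K {a | ctr X a} with hW
  set Ψ := Submodule.span K {φ | ctr (swp X) φ} with hΨ
  have h1 : comK (prV K V) X = Ψ.dualCoannihilator := by
    ext x
    rw [Submodule.mem_dualCoannihilator]
    constructor
    · intro hx φ hφ
      induction hφ using Submodule.span_induction with
      | mem ψ hψ =>
        obtain ⟨a, ha⟩ := hψ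
        exact hx a ψ ha
      | zero => simp
      | add y z _ _ hy hz => simp [hy, hz]
      | smul k y _ hy => simp [hy]
    · intro hx a φ hq
      exact hx φ (Submodule.subset_span ⟨a, hq⟩)
  have h2 : comK (prV K V).flip (swp X) = W.dualAnnihilator := by
    ext ψ
    rw [Submodule.mem_dualAnnihilator]
    constructor
    · intro hψ w hw
      induction hw using Submodule.span_induction with
      | mem a ha =>
        obtain ⟨φ, hφ⟩ := ha
        exact hψ φ a hφ
      | zero => simp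
      | add y z _ _ hy hz => simp [hy, hz]
      | smul k y _ hy => simp [hy]
    · intro hψ φ a hq
      exact hψ a (Submodule.subset_span ⟨φ, hq⟩)
  rw [h1]
  have h3 : (W ⊔ Ψ.dualCoannihilator).dualAnnihilator = ⊥ := by
    rw [Submodule.dualAnnihilator_sup_eq, Subspace.dualCoannihilator_dualAnnihilator_eq, ← h2,
      inf_comm]
    exact hd.eq_bot
  exact Submodule.dualAnnihilator_eq_bot_iff.1 h3

end Cfsg.Agent.Lib.Helper97.McL
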