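import Cfsg.Agent.Lib.Helper97.McL.Defs

/-! Basic lemmas on abstract transvection systems (rung BAS of the S5075 ladder). -/

set_option autoImplicit false

namespace Cfsg.Agent.Lib.Helper97.McL

variable {F A B : Type*} [Field F] [AddCommGroup A] [Module F A] [AddCommGroup B] [Module F B]
variable {pr : A →ₗ[F] B →ₗ[F] F} {S : Set (A × B)}

theorem TS.swap (h : TS pr S) : TS pr.flip (swp S) where
  iso := fun a φ hq => h.iso φ a hq
  neL := fun a φ hq => h.neR φ a hq
  neR := fun a φ hq => h.neL φ a hq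
  smul := fun a φ hq l m hl hm => h.smul φ a hq m l hm hl
  addL := fun a a' φ h1 h2 hne => h.addR φ a a' h1 h2 hne
  addR := fun a φ φ' h1 h2 hne => h.addL φ φ' a h1 h2 hne
  conj := by
    intro x ξ a φ h1 h2
    have h3 := h.smul ξ x h1 1 (-1) one_ne_zero (by simp)
    have h4 := h.conj _ _ _ _ h3 h2
    simp only [one_smul, map_neg, neg_smul, smul_neg, sub_neg_eq_add] at h4
    show (φ - pr φ x • ξ, a + pr ξ a • x) ∈ S
    rw [sub_eq_add_neg]
    exact h4
  mul3 := by
    intro a₁ φ₁ a₂ φ₂ a₃ φ₃ a φ h1 h2 h3 e12 e13 e21 e23 e31 e32 ha hφ hz i1 i2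
    exact h.mul3 φ₁ a₁ φ₂ a₂ φ₃ a₃ φ a h1 h2 h3 e21 e31 e12 e32 e13 e23 hφ ha hz i2 i1
  partner := by
    intro a φ hq
    obtain ⟨b, ψ, hb, h1, h2⟩ := h.partner φ a hq
    exact ⟨ψ, b, hb, h2, h1⟩
  xorL := fun U hU a φ hq => h.xorR U (fun a' φ' hq' => hU φ' a' hq') φ a hq
  xorR := fun U hU a φ hq => h.xorL U (fun a' φ' hq' => hU φ' a' hq') φ a hq

theorem TS.half (h : TS pr S) {a b : A} {φ ψ : B} (h1 : (a, φ) ∈ S) (h2 : (b, ψ) ∈ S)
    (h3 : pr b φ ≠ 0) (h4 : pr a ψ = 0) : (a, ψ) ∈ S := by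
  have h5 := h.conj _ _ _ _ h1 h2
  rw [h4, zero_smul, sub_zero] at h5
  have h6 := h.smul _ _ h2 (-1) 1 (by simp) one_ne_zero
  rw [one_smul] at h6
  have ha := h.neL _ _ h1
  have h7 := h.addL _ _ _ h5 h6 (by simpa using ⟨h3, ha⟩)
  have h8 := h.smul _ _ h7 (pr b φ)⁻¹ 1 (inv_ne_zero h3) one_ne_zero
  have e : (pr b φ)⁻¹ • (b + pr b φ • a + (-1 : F) • b) = a := by
    have : b + pr b φ • a + (-1 : F) • b = pr b φ • a := by module
    rw [this, smul_smul, inv_mul_cancel₀ h3, one_smul]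
  rwa [e, one_smul] at h8

theorem TS.conjk (h : TS pr S) {x a : A} {ξ φ : B} (h1 : (x, ξ) ∈ S) (h2 : (a, φ) ∈ S) (k : F) :
    (a + (k * pr a ξ) • x, φ - (k * pr x φ) • ξ) ∈ S := by
  by_cases hk : k = 0
  · simpa [hk] using h2
  · have h3 := h.smul _ _ h1 1 k one_ne_zero hk
    have h4 := h.conj _ _ _ _ h3 h2
    simp only [one_smul, map_smul, smul_eq_mul, LinearMap.smul_apply] at h4
    rw [smul_smul] at h4
    have e : pr x φ * k = k * pr x φ := mul_comm _ _
    rwa [e] at h4

theorem TS.lin (h : TS pr S) {a : A} {φ φ' : B} (h1 : (a, φ) ∈ S) (h2 : (a, φ') ∈ S) (k l : F)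
    (hne : k • φ + l • φ' ≠ 0) : (a, k • φ + l • φ') ∈ S := by
  by_cases hk : k = 0
  · by_cases hl : l = 0
    · simp [hk, hl] at hne
    · have := h.smul _ _ h2 1 l one_ne_zero hl
      simpa [hk] using this
  · by_cases hl : l = 0
    · have := h.smul _ _ h1 1 k one_ne_zero hk
      simpa [hl] using this
    · have e1 := h.smul _ _ h1 1 k one_ne_zero hk
      have e2 := h.smul _ _ h2 1 l one_ne_zero hl
      rw [one_smul] at e1 e2
      exact h.addR _ _ _ e1 e2 hne

theorem Conn.stepk (h : TS pr S) {a b x : A} {ξ : B} (hc : Conn pr S a b) (hx : (x, ξ) ∈ S) (k : F) :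
    Conn pr S a (b + (k * pr b ξ) • x) := by
  by_cases hk : k = 0
  · simpa [hk] using hc
  · have h3 := h.smul _ _ hx 1 k one_ne_zero hk
    have h4 := Conn.step _ _ hc h3
    simpa using h4

theorem Conn.trans {a b c : A} (h1 : Conn pr S a b) (h2 : Conn pr S b c) : Conn pr S a c := by
  induction h2 with
  | refl => exact h1
  | step x ξ _ hx ih => exact Conn.step x ξ ih hx
  | smul l _ hl ih => exact Conn.smul l ih hl

theorem Conn.symm (h : TS pr S) {a b : A} (hc : Conn pr S a b) : Conn pr S b a := by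
  induction hc with
  | refl => exact Conn.refl _
  | @step b x ξ _ hx ih =>
    refine Conn.trans ?_ ih
    have h1 := Conn.stepk h (Conn.refl (pr := pr) (S := S) (b + pr b ξ • x)) hx (-1)
    have e : b + pr b ξ • x + (-1 * pr (b + pr b ξ • x) ξ) • x = b := by
      simp only [map_add, map_smul, LinearMap.add_apply, LinearMap.smul_apply, h.iso _ _ hx,
        smul_eq_mul, mul_zero, add_zero]
      module
    rwa [e] at h1
  | @smul b l _ hl ih =>
    refine Conn.trans ?_ ih
    have h1 := Conn.smul l⁻¹ (Conn.refl (pr := pr) (S := S) (l • b)) (inv_ne_zero hl)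
    rwa [smul_smul, inv_mul_cancel₀ hl, one_smul] at h1

theorem Conn.isCtr (h : TS pr S) {a b : A} (hc : Conn pr S a b) (ha : ctr S a) : ctr S b := by
  induction hc with
  | refl => exact ha
  | step x ξ _ hx ih =>
    obtain ⟨φ, hφ⟩ := ih
    exact ⟨_, h.conj _ _ _ _ hx hφ⟩
  | smul l _ hl ih =>
    obtain ⟨φ, hφ⟩ := ih
    exact ⟨_, h.smul _ _ hφ l 1 hl one_ne_zero⟩

theorem Conn.ne_zero (h : TS pr S) {a b : A} (hc : Conn pr S a b) (ha : ctr S a) : b ≠ 0 := by
  obtain ⟨φ, hφ⟩ := hc.isCtr h ha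
  exact h.neL _ _ hφ

theorem perp_self (h : TS pr S) (a : A) : perp pr S a a := fun φ hφ => h.iso _ _ hφ

theorem perp_add {a x y : A} (hx : perp pr S a x) (hy : perp pr S a y) : perp pr S a (x + y) := by
  intro φ hφ
  simp [hx φ hφ, hy φ hφ]

theorem perp_sub {a x y : A} (hx : perp pr S a x) (hy : perp pr S a y) : perp pr S a (x - y) := by
  intro φ hφ
  simp [hx φ hφ, hy φ hφ]

theorem perp_smul {a x : A} (k : F) (hx : perp pr S a x) : perp pr S a (k • x) := by
  intro φ hφ
  simp [hx φ hφ]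

theorem perp_zero (a : A) : perp pr S a 0 := by
  intro φ _
  simp

theorem mem_smul_left_iff (h : TS pr S) {a : A} {φ : B} {k : F} (hk : k ≠ 0) :
    (k • a, φ) ∈ S ↔ (a, φ) ∈ S := by
  constructor
  · intro hq
    have := h.smul _ _ hq k⁻¹ 1 (inv_ne_zero hk) one_ne_zero
    rwa [smul_smul, inv_mul_cancel₀ hk, one_smul, one_smul] at this
  · intro hq
    have := h.smul _ _ hq k 1 hk one_ne_zero
    rwa [one_smul] at this

theorem perp_smul_left (h : TS pr S) {a x : A} {k : F} (hk : k ≠ 0) :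
    perp pr S (k • a) x ↔ perp pr S a x := by
  constructor
  · intro hp φ hφ
    exact hp φ ((mem_smul_left_iff h hk).2 hφ)
  · intro hp φ hφ
    exact hp φ ((mem_smul_left_iff h hk).1 hφ)

/-- the pair `(a, φ)` is in `S` iff its conjugate by `(x, ξ)` is. -/
theorem mem_move_iff (h : TS pr S) {x : A} {ξ : B} (hx : (x, ξ) ∈ S) (a : A) (φ : B) :
    (a + pr a ξ • x, φ - pr x φ • ξ) ∈ S ↔ (a, φ) ∈ S := by
  constructor
  · intro hq
    have h1 := h.conjk hx hq (-1)
    have hz := h.iso _ _ hx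
    have e1 : a + pr a ξ • x + (-1 * pr (a + pr a ξ • x) ξ) • x = a := by
      simp only [map_add, map_smul, LinearMap.add_apply, LinearMap.smul_apply, hz,
        smul_eq_mul, mul_zero, add_zero]
      module
    have e2 : φ - pr x φ • ξ - (-1 * pr x (φ - pr x φ • ξ)) • ξ = φ := by
      simp only [map_sub, map_smul, hz, smul_eq_mul, mul_zero, sub_zero]
      module
    rwa [e1, e2] at h1
  · intro hq
    exact h.conj _ _ _ _ hx hq

theorem perp_move (h : TS pr S) {x : A} {ξ : B} (hx : (x, ξ) ∈ S) (a y : A) :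
    perp pr S (a + pr a ξ • x) (y + pr y ξ • x) ↔ perp pr S a y := by
  have hz := h.iso _ _ hx
  constructor
  · intro hp φ hφ
    have h1 := hp _ (h.conj _ _ _ _ hx hφ)
    simp only [map_add, map_sub, map_smul, LinearMap.add_apply, LinearMap.smul_apply, hz,
      smul_eq_mul, mul_zero, sub_zero] at h1
    linear_combination h1
  · intro hp φ hφ
    -- φ = φ' - ⟨x, φ'⟩ ξ with φ' = φ + ⟨x, φ⟩ ξ
    have e : φ = (φ + pr x φ • ξ) - pr x (φ + pr x φ • ξ) • ξ := by
      simp only [map_add, map_smul, hz, smul_eq_mul, mul_zero, add_zero]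
      module
    rw [e] at hφ
    have h1 := hp _ ((mem_move_iff h hx a _).1 hφ)
    simp only [map_add, map_smul, LinearMap.add_apply, LinearMap.smul_apply,
      smul_eq_mul] at h1 ⊢
    linear_combination h1

theorem two_avoid (h : TS pr S) {c u v : A} (hu : ¬ perp pr S c u) (hv : ¬ perp pr S c v) :
    ∃ χ, (c, χ) ∈ S ∧ pr u χ ≠ 0 ∧ pr v χ ≠ 0 := by
  unfold perp at hu hv
  push_neg at hu hv
  obtain ⟨χ₁, h1, hu1⟩ := hu
  obtain ⟨χ₂, h2, hv2⟩ := hv
  by_cases hv1 : pr v χ₁ = 0
  · by_cases hu2 : pr u χ₂ = 0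
    · have hne : χ₁ + χ₂ ≠ 0 := by
        intro e
        have : pr u (χ₁ + χ₂) = 0 := by rw [e]; simp
        rw [map_add, hu2, add_zero] at this
        exact hu1 this
      exact ⟨χ₁ + χ₂, h.addR _ _ _ h1 h2 hne, by simpa [hu2] using hu1, by simpa [hv1] using hv2⟩
    · exact ⟨χ₂, h2, hu2, hv2⟩
  · exact ⟨χ₁, h1, hu1, hv1⟩

theorem card_axes [Finite B] (h : TS pr S) {a b : A} (hc : Conn pr S a b) :
    Nat.card {φ // (a, φ) ∈ S} = Nat.card {φ // (b, φ) ∈ S} := by
  induction hc with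
  | refl => rfl
  | @step b x ξ _ hx ih =>
    rw [ih]
    have hz := h.iso _ _ hx
    refine Nat.card_congr ⟨fun φ => ⟨φ.1 - pr x φ.1 • ξ, h.conj _ _ _ _ hx φ.2⟩,
      fun φ => ⟨φ.1 + pr x φ.1 • ξ, ?_⟩, ?_, ?_⟩
    · have e : φ.1 = (φ.1 + pr x φ.1 • ξ) - pr x (φ.1 + pr x φ.1 • ξ) • ξ := by
        simp only [map_add, map_smul, hz, smul_eq_mul, mul_zero, add_zero]
        module
      have h2 := φ.2
      rw [e] at h2
      exact (mem_move_iff h hx b _).1 h2
    · intro φ
      apply Subtype.ext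
      simp only [map_sub, map_smul, hz, smul_eq_mul, mul_zero, sub_zero]
      module
    · intro φ
      apply Subtype.ext
      simp only [map_add, map_smul, hz, smul_eq_mul, mul_zero, add_zero]
      module
  | @smul b l _ hl ih =>
    rw [ih]
    exact Nat.card_congr (Equiv.subtypeEquivRight fun φ => (mem_smul_left_iff h hl).symm)

theorem mem_cls_iff (h : TS pr S) (hA : AddClosed pr S) {a₀ : A} (ha : ctr S a₀) (x : A) :
    x ∈ cls pr S a₀ ↔ x = 0 ∨ Conn pr S a₀ x := by
  constructor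
  · intro hx
    unfold cls at hx
    induction hx using Submodule.span_induction with
    | mem y hy => exact Or.inr hy
    | zero => exact Or.inl rfl
    | add y z _ _ hy hz =>
      rcases hy with rfl | hy
      · simpa using hz
      · rcases hz with rfl | hz
        · simpa using Or.inr hy
        · by_cases e : y + z = 0
          · exact Or.inl e
          · right
            have h1 : Conn pr S y z := (hy.symm h).trans hz
            exact hy.trans (hA y z (hy.isCtr h ha) h1 e)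
    | smul k y _ hy =>
      rcases hy with rfl | hy
      · simp
      · by_cases hk : k = 0
        · simp [hk]
        · exact Or.inr (Conn.smul k hy hk)
  · rintro (rfl | hx)
    · exact Submodule.zero_mem _
    · exact Submodule.subset_span hx

end Cfsg.Agent.Lib.Helper97.McL
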