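import Cfsg.Agent.Lib.Helper97.McL.Defs
import Cfsg.Agent.Lib.Helper97.McL.Basic
import Cfsg.Agent.Lib.Helper95.SLGen

set_option autoImplicit false

/-! Rung SLB of the MCL ladder (helper56). -/

namespace Cfsg.Agent.Lib.Helper97.McL

open Cfsg.Agent.Lib.Helper95

private theorem SLB_sl_le {K W : Type*} [Field K] [AddCommGroup W] [Module K W]
    [FiniteDimensional K W] (M' : Subgroup (W ≃ₗ[K] W))
    (h : ∀ (f : Module.Dual K W) (v : W) (hfv : f v = 0), LinearEquiv.transvection hfv ∈ M')
    (f : W ≃ₗ[K] W) (hf : LinearMap.det (f : W →ₗ[K] W) = 1) : f ∈ M' := by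
  obtain ⟨n, hn⟩ : ∃ n, n = Module.finrank K W := ⟨_, rfl⟩
  rcases Nat.lt_or_ge n 2 with hlt | hge
  · have hf1 : f = 1 := by
      interval_cases n
      · have : Subsingleton W := Module.finrank_zero_iff.1 hn.symm
        ext x; exact Subsingleton.elim _ _
      · obtain ⟨c, hc, -⟩ :=
          LinearMap.existsUnique_eq_smul_id_of_finrank_eq_one hn.symm (f : W →ₗ[K] W)
        rw [hc, LinearMap.det_smul, ← hn, pow_one, LinearMap.det_id, mul_one] at hf
        ext x
        have := LinearMap.congr_fun hc x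
        simpa [hf] using this
    rw [hf1]; exact M'.one_mem
  · have : Nontrivial (Fin n) := Fin.nontrivial_iff_two_le.2 hge
    let e : W ≃ₗ[K] (Fin n → K) := LinearEquiv.ofFinrankEq _ _ (by simp [hn])
    let cH : ((Fin n → K) ≃ₗ[K] (Fin n → K)) →* (W ≃ₗ[K] W) :=
      { toFun := fun g => (e.trans g).trans e.symm
        map_one' := by ext x; simp
        map_mul' := by intro a b; ext x; simp [LinearEquiv.mul_apply] }
    have hcH : ∀ g x, cH g x = e.symm (g (e x)) := fun _ _ => rfl
    have h1 := slGrp_le_of_transvections (M'.comap cH) (by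
      intro φ v hφv
      show cH _ ∈ M'
      have hfv' : (φ ∘ₗ (e : W →ₗ[K] (Fin n → K))) (e.symm v) = 0 := by simpa using hφv
      have : cH (LinearEquiv.transvection hφv) = LinearEquiv.transvection hfv' := by
        ext x
        rw [hcH]
        simp [LinearMap.transvection.apply]
      rw [this]; exact h _ _ _)
    have h2 : (e.symm.trans f).trans e ∈ slGrp K (Fin n → K) := by
      show LinearEquiv.det _ = 1
      rw [LinearEquiv.det_conj, ← Units.val_inj, LinearEquiv.coe_det, hf, Units.val_one]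
    have h3 : cH ((e.symm.trans f).trans e) ∈ M' := h1 h2
    have h4 : cH ((e.symm.trans f).trans e) = f := by
      ext x
      rw [hcH]
      simp
    rwa [h4] at h3

variable {K V : Type*} [Field K] [AddCommGroup V] [Module K V]

theorem range_eq_sl [FiniteDimensional K V] (W : Submodule K V) (X : Set (V × Module.Dual K V))
    (hX : ∀ a φ, (a, φ) ∈ X → a ∈ W)
    (hall : ∀ (a : ↥W) (θ : Module.Dual K ↥W), a ≠ 0 → θ ≠ 0 → θ a = 0 →
      ∃ φ, ((a : V), φ) ∈ X ∧ ∀ w : ↥W, φ (w : V) = θ w)
    (ρ : ↥(Subgroup.closure (tvSet X)) →* (↥W ≃ₗ[K] ↥W))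
    (hρ : ∀ (g : ↥(Subgroup.closure (tvSet X))) (v : ↥W),
      ((ρ g v : ↥W) : V) = (g : V ≃ₗ[K] V) (v : V)) :
    (ρ.range : Set (↥W ≃ₗ[K] ↥W)) =
      {f : ↥W ≃ₗ[K] ↥W | LinearMap.det (f : ↥W →ₗ[K] ↥W) = 1} := by
  have hdet : ∀ g (hg : g ∈ Subgroup.closure (tvSet X)), LinearEquiv.det (ρ ⟨g, hg⟩) = 1 := by
    intro g hg
    induction hg using Subgroup.closure_induction with
    | mem x hx =>
      obtain ⟨a, φ, haφ, h0, rfl⟩ := hx
      have h0' : (φ ∘ₗ W.subtype) (⟨a, hX a φ haφ⟩ : ↥W) = 0 := h0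
      have : ρ ⟨LinearEquiv.transvection h0, Subgroup.subset_closure ⟨a, φ, haφ, h0, rfl⟩⟩ =
          LinearEquiv.transvection h0' := by
        ext v
        rw [hρ]
        simp [LinearMap.transvection.apply]
      rw [this]
      exact LinearEquiv.transvection.det_eq_one h0'
    | one =>
      have : (⟨1, Subgroup.one_mem _⟩ : ↥(Subgroup.closure (tvSet X))) = 1 := rfl
      rw [this, map_one, map_one]
    | mul x y hx hy ihx ihy =>
      have : (⟨x * y, Subgroup.mul_mem _ hx hy⟩ : ↥(Subgroup.closure (tvSet X))) =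
          ⟨x, hx⟩ * ⟨y, hy⟩ := rfl
      rw [this, map_mul, map_mul, ihx, ihy, one_mul]
    | inv x hx ih =>
      have : (⟨x⁻¹, Subgroup.inv_mem _ hx⟩ : ↥(Subgroup.closure (tvSet X))) = ⟨x, hx⟩⁻¹ := rfl
      rw [this, map_inv, map_inv, ih, inv_one]
  ext f
  constructor
  · rintro ⟨g, rfl⟩
    show LinearMap.det _ = 1
    rw [← LinearEquiv.coe_det, hdet g.1 g.2, Units.val_one]
  · intro hf
    refine SLB_sl_le ρ.range ?_ f hf
    intro θ a hθa
    by_cases ha : a = 0
    · subst ha
      have : LinearEquiv.transvection hθa = 1 := by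
        ext x; simp
      rw [this]; exact Subgroup.one_mem _
    by_cases hθ : θ = 0
    · subst hθ
      have : LinearEquiv.transvection hθa = 1 := by
        ext x; simp
      rw [this]; exact Subgroup.one_mem _
    obtain ⟨φ, hφX, hφ⟩ := hall a θ ha hθ hθa
    have h0 : φ (a : V) = 0 := by rw [hφ a, hθa]
    refine ⟨⟨LinearEquiv.transvection h0, Subgroup.subset_closure ⟨a, φ, hφX, h0, rfl⟩⟩, ?_⟩
    ext v
    rw [hρ]
    simp [LinearMap.transvection.apply, hφ v]

theorem hall_of_thin [FiniteDimensional K V] {X : Set (V × Module.Dual K V)} (h : TS (prV K V) X)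
    (hA : AddClosed (prV K V) X) {a₀ : V} (ha : ctr X a₀) (hT : Thin (prV K V) X a₀)
    (W : Submodule K V) (hW : W = cls (prV K V) X a₀)
    (a : ↥W) (θ : Module.Dual K ↥W) (ha0 : a ≠ 0) (hθ : θ ≠ 0) (hθa : θ a = 0) :
    ∃ φ, ((a : V), φ) ∈ X ∧ ∀ w : ↥W, φ (w : V) = θ w := by
  have haV : (a : V) ≠ 0 := fun hh => ha0 (Subtype.ext hh)
  have hconn : Conn (prV K V) X a₀ (a : V) := by
    have := hW.le a.2
    rw [mem_cls_iff h hA ha] at this
    exact this.resolve_left haV
  let P : Submodule K (Module.Dual K V) :=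
    { carrier := {φ | φ = 0 ∨ ((a : V), φ) ∈ X}
      add_mem' := by
        rintro φ φ' (rfl | h1) (rfl | h2)
        · left; simp
        · right; simpa using h2
        · right; simpa using h1
        · by_cases h0 : φ + φ' = 0
          · left; exact h0
          · right; exact h.addR _ _ _ h1 h2 h0
      zero_mem' := Or.inl rfl
      smul_mem' := by
        rintro c φ (rfl | h1)
        · left; simp
        · by_cases hc : c = 0
          · left; simp [hc]
          · right
            have := h.smul _ _ h1 1 c one_ne_zero hc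
            simpa using this }
  have hP : ∀ φ, φ ∈ P ↔ φ = 0 ∨ ((a : V), φ) ∈ X := fun _ => Iff.rfl
  have hmem : θ ∈ P.map W.subtype.dualMap := by
    rw [← Subspace.dualCoannihilator_dualAnnihilator_eq (W := P.map W.subtype.dualMap),
      Submodule.mem_dualAnnihilator]
    intro w hw
    rw [Submodule.mem_dualCoannihilator] at hw
    by_cases hw0 : w = 0
    · rw [hw0, map_zero]
    have hwV : (w : V) ≠ 0 := fun hh => hw0 (Subtype.ext hh)
    have hconnw : Conn (prV K V) X a₀ (w : V) := by
      have := hW.le w.2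
      rw [mem_cls_iff h hA ha] at this
      exact this.resolve_left hwV
    have hperp : perp (prV K V) X (a : V) (w : V) := by
      intro φ hφ
      have := hw (W.subtype.dualMap φ) (Submodule.mem_map_of_mem ((hP φ).2 (Or.inr hφ)))
      simpa using this
    obtain ⟨l, hl⟩ := hT _ _ hconn hconnw hperp
    have : w = l • a := Subtype.ext hl
    rw [this, map_smul, hθa, smul_zero]
  obtain ⟨φ, hφ, rfl⟩ := hmem
  rcases (hP φ).1 hφ with rfl | hφX
  · exact absurd (by simp) hθ
  · exact ⟨φ, hφX, fun w => rfl⟩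

end Cfsg.Agent.Lib.Helper97.McL
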