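import Cfsg.Agent.Lib.Helper97.McL.Basic

/-! Rung SP of the S5075 ladder: the polarity of an orbit of symplectic type. -/

set_option autoImplicit false

namespace Cfsg.Agent.Lib.Helper97.McL

section cocycle

variable {F A : Type*} [Field F] [AddCommGroup A] [Module F A]

private theorem SP_t_avoid (h2 : (2 : F) ≠ 0) (p q r s : F) (hq : q ≠ 0) (hs : s ≠ 0) :
    ∃ t : F, p + t * q ≠ 0 ∧ r + t * s ≠ 0 := by
  by_cases c0 : p ≠ 0 ∧ r ≠ 0
  · exact ⟨0, by simpa using c0.1, by simpa using c0.2⟩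
  by_cases c1 : p + q ≠ 0 ∧ r + s ≠ 0
  · exact ⟨1, by simpa using c1.1, by simpa using c1.2⟩
  rw [not_and_or, not_not, not_not] at c0 c1
  have two : ∀ w : F, 2 * w = 0 → w = 0 := fun w hw => (mul_eq_zero.mp hw).resolve_left h2
  rcases c0 with c0 | c0 <;> rcases c1 with c1 | c1
  · exact absurd (by linear_combination c1 - c0) hq
  · refine ⟨-1, fun e => hq (by linear_combination c0 - e), fun e => hs (two s ?_)⟩
    linear_combination c1 - e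
  · refine ⟨-1, fun e => hq (two q ?_), fun e => hs (by linear_combination c0 - e)⟩
    linear_combination c1 - e
  · exact absurd (by linear_combination c1 - c0) hs

variable (W : Submodule F A) (G : A → A →ₗ[F] F)

private theorem SP_two (hnd : ∀ x ∈ W, x ≠ 0 → ∃ b ∈ W, G x b ≠ 0) {x₁ x₂ : A}
    (h1 : x₁ ∈ W) (h1' : x₁ ≠ 0) (h2 : x₂ ∈ W) (h2' : x₂ ≠ 0) :
    ∃ y ∈ W, G x₁ y ≠ 0 ∧ G x₂ y ≠ 0 := by
  obtain ⟨b₁, hb₁, e₁⟩ := hnd x₁ h1 h1'
  obtain ⟨b₂, hb₂, e₂⟩ := hnd x₂ h2 h2'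
  by_cases c1 : G x₂ b₁ = 0
  · by_cases c2 : G x₁ b₂ = 0
    · exact ⟨b₁ + b₂, W.add_mem hb₁ hb₂, by simpa [c2] using e₁, by simpa [c1] using e₂⟩
    · exact ⟨b₂, hb₂, c2, e₂⟩
  · exact ⟨b₁, hb₁, e₁, c1⟩

private theorem SP_three (h2 : (2 : F) ≠ 0) (hnd : ∀ x ∈ W, x ≠ 0 → ∃ b ∈ W, G x b ≠ 0)
    {x₁ x₂ x₃ : A} (h1 : x₁ ∈ W) (h1' : x₁ ≠ 0) (h2w : x₂ ∈ W) (h2' : x₂ ≠ 0)
    (h3 : x₃ ∈ W) (h3' : x₃ ≠ 0) :
    ∃ y ∈ W, G x₁ y ≠ 0 ∧ G x₂ y ≠ 0 ∧ G x₃ y ≠ 0 := by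
  obtain ⟨y, hy, e₁, e₂⟩ := SP_two W G hnd h1 h1' h2w h2'
  by_cases c : G x₃ y = 0
  · obtain ⟨z, hz, e₃⟩ := hnd x₃ h3 h3'
    obtain ⟨t, t1, t2⟩ := SP_t_avoid h2 (G x₁ z) (G x₁ y) (G x₂ z) (G x₂ y) e₁ e₂
    refine ⟨z + t • y, W.add_mem hz (W.smul_mem _ hy), ?_, ?_, ?_⟩
    · simpa using t1
    · simpa using t2
    · simpa [c] using e₃
  · exact ⟨y, hy, e₁, e₂, c⟩

private theorem SP_tri (hself : ∀ x ∈ W, G x x = 0)
    (hsym : ∀ x ∈ W, ∀ y ∈ W, G x y = 0 → G y x = 0)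
    {x y z : A} (hx : x ∈ W) (hy : y ∈ W) (hz : z ∈ W)
    (hyz : G y z ≠ 0) (hzx : G z x ≠ 0) :
    G x y * G y z * G z x = - (G y x * G z y * G x z) := by
  have hxz : G x z ≠ 0 := fun e => hzx (hsym x hx z hz e)
  obtain ⟨γ, hγ⟩ : ∃ γ, γ * G y z = - G y x := ⟨- G y x / G y z, by field_simp⟩
  obtain ⟨β, hβ⟩ : ∃ β, β * G x z = G x y := ⟨G x y / G x z, by field_simp⟩
  obtain ⟨α, hα⟩ : ∃ α, α * G z x = G z y := ⟨G z y / G z x, by field_simp⟩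
  obtain ⟨u, hu⟩ : ∃ u, u = x + γ • z := ⟨_, rfl⟩
  obtain ⟨y0, hy0⟩ : ∃ y0, y0 = y - α • x - β • z := ⟨_, rfl⟩
  have huW : u ∈ W := by rw [hu]; exact W.add_mem hx (W.smul_mem _ hz)
  have hy0W : y0 ∈ W := by
    rw [hy0]; exact W.sub_mem (W.sub_mem hy (W.smul_mem _ hx)) (W.smul_mem _ hz)
  have h1 : G y u = 0 := by
    rw [hu, map_add, map_smul, smul_eq_mul, hγ]; ring
  have h2 : G u y = 0 := hsym y hy u huW h1
  have h3 : G x y0 = 0 := by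
    rw [hy0, map_sub, map_sub, map_smul, map_smul, smul_eq_mul, smul_eq_mul, hself x hx, hβ]; ring
  have h4 : G z y0 = 0 := by
    rw [hy0, map_sub, map_sub, map_smul, map_smul, smul_eq_mul, smul_eq_mul, hself z hz, hα]; ring
  have h5 : G y0 x = 0 := hsym x hx y0 hy0W h3
  have h6 : G y0 z = 0 := hsym z hz y0 hy0W h4
  have h7 : G y0 u = 0 := by
    rw [hu, map_add, map_smul, smul_eq_mul, h5, h6]; ring
  have h8 : G u y0 = 0 := hsym y0 hy0W u huW h7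
  have h9 : G u u = 0 := hself u huW
  have h10 : G z u = G z x := by
    rw [hu, map_add, map_smul, smul_eq_mul, hself z hz]; ring
  have h11 : G u z ≠ 0 := fun e => hzx (h10 ▸ hsym u huW z hz e)
  have e1 : G u y0 = G u y - α * G u x - β * G u z := by
    rw [hy0, map_sub, map_sub, map_smul, map_smul, smul_eq_mul, smul_eq_mul]
  have e2 : G u (x + γ • z) = G u x + γ * G u z := by
    rw [map_add, map_smul, smul_eq_mul]
  rw [← hu, h9] at e2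
  rw [h8, h2] at e1
  have e3 : (β - α * γ) * G u z = 0 := by linear_combination e1 + α * e2
  have e4 : β = α * γ := by
    have := (mul_eq_zero.mp e3).resolve_right h11
    linear_combination this
  have hyx : G y x = -(γ * G y z) := by rw [hγ]; ring
  rw [← hβ, ← hα, hyx, e4]; ring

private def SP_R (G : A → A →ₗ[F] F) (x y : A) : F := - G x y / G y x

private theorem SP_R_ne {x y : A} (h1 : G x y ≠ 0) (h2 : G y x ≠ 0) : SP_R G x y ≠ 0 := by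
  unfold SP_R
  exact div_ne_zero (neg_ne_zero.mpr h1) h2

private theorem SP_R_inv {x y : A} (h1 : G x y ≠ 0) (h2 : G y x ≠ 0) :
    SP_R G x y * SP_R G y x = 1 := by
  unfold SP_R
  field_simp

private theorem SP_R_mul {x y : A} (h2 : G y x ≠ 0) :
    SP_R G x y * G y x = - G x y := by
  unfold SP_R
  field_simp

private theorem SP_R_tri (hself : ∀ x ∈ W, G x x = 0)
    (hsym : ∀ x ∈ W, ∀ y ∈ W, G x y = 0 → G y x = 0)
    {x y z : A} (hx : x ∈ W) (hy : y ∈ W) (hz : z ∈ W)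
    (hxy : G x y ≠ 0) (hyz : G y z ≠ 0) (hzx : G z x ≠ 0) :
    SP_R G x y * SP_R G y z * SP_R G z x = 1 := by
  have T := SP_tri W G hself hsym hx hy hz hyz hzx
  have hyx : G y x ≠ 0 := fun e => hxy (hsym y hy x hx e)
  have hzy : G z y ≠ 0 := fun e => hyz (hsym z hz y hy e)
  have hxz : G x z ≠ 0 := fun e => hzx (hsym x hx z hz e)
  unfold SP_R
  field_simp
  linear_combination (-1 : F) * T

private theorem SP_indep1 (hself : ∀ x ∈ W, G x x = 0)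
    (hsym : ∀ x ∈ W, ∀ y ∈ W, G x y = 0 → G y x = 0)
    {a x z z' : A} (ha : a ∈ W) (hx : x ∈ W) (hz : z ∈ W) (hz' : z' ∈ W)
    (az : G a z ≠ 0) (xz : G x z ≠ 0) (az' : G a z' ≠ 0) (xz' : G x z' ≠ 0) (zz' : G z z' ≠ 0) :
    SP_R G a z * SP_R G z x = SP_R G a z' * SP_R G z' x := by
  have z'a : G z' a ≠ 0 := fun e => az' (hsym z' hz' a ha e)
  have z'x : G z' x ≠ 0 := fun e => xz' (hsym z' hz' x hx e)
  have zx : G z x ≠ 0 := fun e => xz (hsym z hz x hx e)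
  have T1 := SP_R_tri W G hself hsym ha hz hz' az zz' z'a
  have T2 := SP_R_tri W G hself hsym hx hz hz' xz zz' z'x
  have I3 := SP_R_inv G az' z'a
  have I2 := SP_R_inv G zx xz
  have e1 : SP_R G a z * SP_R G z z' = SP_R G a z' := by
    linear_combination SP_R G a z' * T1 - SP_R G a z * SP_R G z z' * I3
  have e2 : SP_R G z z' * SP_R G z' x = SP_R G z x := by
    linear_combination SP_R G z x * T2 - SP_R G z z' * SP_R G z' x * I2
  linear_combination SP_R G z' x * e1 - SP_R G a z * e2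

private theorem SP_four (h2 : (2 : F) ≠ 0) (hself : ∀ x ∈ W, G x x = 0)
    (hnd : ∀ x ∈ W, x ≠ 0 → ∃ b ∈ W, G x b ≠ 0)
    {a x z z' : A} (hz : z ∈ W) (hz' : z' ∈ W) (hz0 : z ≠ 0) (hz'0 : z' ≠ 0)
    (az : G a z ≠ 0) (xz : G x z ≠ 0) (z'z : G z' z = 0) :
    ∃ w ∈ W, G a w ≠ 0 ∧ G x w ≠ 0 ∧ G z w ≠ 0 ∧ G z' w ≠ 0 := by
  obtain ⟨y0, hy0, e1, e2⟩ := SP_two W G hnd hz hz0 hz' hz'0
  obtain ⟨t, t1, t2⟩ := SP_t_avoid h2 (G a y0) (G a z) (G x y0) (G x z) az xz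
  refine ⟨y0 + t • z, W.add_mem hy0 (W.smul_mem _ hz), ?_, ?_, ?_, ?_⟩
  · simpa using t1
  · simpa using t2
  · simpa [hself z hz] using e1
  · simpa [z'z] using e2

private theorem SP_indep (h2 : (2 : F) ≠ 0) (hself : ∀ x ∈ W, G x x = 0)
    (hsym : ∀ x ∈ W, ∀ y ∈ W, G x y = 0 → G y x = 0)
    (hnd : ∀ x ∈ W, x ≠ 0 → ∃ b ∈ W, G x b ≠ 0)
    {a x z z' : A} (ha : a ∈ W) (hx : x ∈ W) (hz : z ∈ W) (hz' : z' ∈ W)
    (az : G a z ≠ 0) (xz : G x z ≠ 0) (az' : G a z' ≠ 0) (xz' : G x z' ≠ 0) :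
    SP_R G a z * SP_R G z x = SP_R G a z' * SP_R G z' x := by
  by_cases zz' : G z z' = 0
  · have hz0 : z ≠ 0 := by rintro rfl; simp at az
    have hz'0 : z' ≠ 0 := by rintro rfl; simp at az'
    obtain ⟨w, hw, aw, xw, zw, z'w⟩ :=
      SP_four W G h2 hself hnd hz hz' hz0 hz'0 az xz (hsym z hz z' hz' zz')
    have wz' : G w z' ≠ 0 := fun e => z'w (hsym w hw z' hz' e)
    rw [SP_indep1 W G hself hsym ha hx hz hw az xz aw xw zw,
      SP_indep1 W G hself hsym ha hx hw hz' aw xw az' xz' wz']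
  · exact SP_indep1 W G hself hsym ha hx hz hz' az xz az' xz' zz'

private theorem SP_cocycle (h2 : (2 : F) ≠ 0) (hself : ∀ x ∈ W, G x x = 0)
    (hsym : ∀ x ∈ W, ∀ y ∈ W, G x y = 0 → G y x = 0)
    (hnd : ∀ x ∈ W, x ≠ 0 → ∃ b ∈ W, G x b ≠ 0) {a₀ : A} (ha₀ : a₀ ∈ W) (ha₀' : a₀ ≠ 0) :
    ∃ d : A → F, (∀ x ∈ W, x ≠ 0 → d x ≠ 0) ∧
      ∀ x ∈ W, ∀ y ∈ W, x ≠ 0 → y ≠ 0 → d x * G x y = - (d y * G y x) := by
  have hch : ∀ x : A, ∃ z, x ∈ W → x ≠ 0 → (z ∈ W ∧ G a₀ z ≠ 0 ∧ G x z ≠ 0) := by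
    intro x
    by_cases hx : x ∈ W ∧ x ≠ 0
    · obtain ⟨z, hz, e1, e2⟩ := SP_two W G hnd ha₀ ha₀' hx.1 hx.2
      exact ⟨z, fun _ _ => ⟨hz, e1, e2⟩⟩
    · exact ⟨0, fun h1 h2 => absurd ⟨h1, h2⟩ hx⟩
  choose ζ hζ using hch
  refine ⟨fun x => SP_R G a₀ (ζ x) * SP_R G (ζ x) x, ?_, ?_⟩
  · intro x hx hx0
    obtain ⟨hz, e1, e2⟩ := hζ x hx hx0
    exact mul_ne_zero (SP_R_ne G e1 (fun e => e1 (hsym _ hz _ ha₀ e)))
      (SP_R_ne G (fun e => e2 (hsym _ hz _ hx e)) e2)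
  · intro x hx y hy hx0 hy0
    by_cases hxy : G x y = 0
    · rw [hxy, hsym x hx y hy hxy]; simp
    · have hyx : G y x ≠ 0 := fun e => hxy (hsym y hy x hx e)
      obtain ⟨hzx, ex1, ex2⟩ := hζ x hx hx0
      obtain ⟨hzy, ey1, ey2⟩ := hζ y hy hy0
      obtain ⟨w, hw, aw, xw, yw⟩ := SP_three W G h2 hnd ha₀ ha₀' hx hx0 hy hy0
      have wy : G w y ≠ 0 := fun e => yw (hsym w hw y hy e)
      have wx : G w x ≠ 0 := fun e => xw (hsym w hw x hx e)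
      have dx := SP_indep W G h2 hself hsym hnd ha₀ hx hzx hw ex1 ex2 aw xw
      have dy := SP_indep W G h2 hself hsym hnd ha₀ hy hzy hw ey1 ey2 aw yw
      have T := SP_R_tri W G hself hsym hw hy hx wy hyx xw
      have I := SP_R_inv G wx xw
      have e1 : SP_R G w y * SP_R G y x = SP_R G w x := by
        linear_combination SP_R G w x * T - SP_R G w y * SP_R G y x * I
      have e2 := SP_R_mul G (x := y) (y := x) hxy
      show SP_R G a₀ (ζ x) * SP_R G (ζ x) x * G x y = - (SP_R G a₀ (ζ y) * SP_R G (ζ y) y * G y x)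
      rw [dx, dy, ← e1]
      linear_combination SP_R G a₀ w * SP_R G w y * e2

end cocycle

variable {F A B : Type*} [Field F] [AddCommGroup A] [Module F A] [AddCommGroup B] [Module F B]
variable {pr : A →ₗ[F] B →ₗ[F] F} {S : Set (A × B)}

private theorem SP_perp_comm (hP : PerpSymm pr S) {a c : A} (ha : ctr S a) (hc : ctr S c)
    (h : perp pr S a c) : perp pr S c a := by
  by_contra hn
  exact (hP c a hc ha hn).1 h

private theorem SP_xor_hyp (h : TS pr S) (hP : PerpSymm pr S) (hA : AddClosed pr S) {a₀ : A}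
    (ha : ctr S a₀) :
    ∀ a φ, (a, φ) ∈ S → a ∈ cls pr S a₀ ∨ ∀ u ∈ cls pr S a₀, pr u φ = 0 := by
  intro a φ hq
  by_cases hk : ∀ u ∈ cls pr S a₀, pr u φ = 0
  · exact Or.inr hk
  · left
    push_neg at hk
    obtain ⟨u, hu, hne⟩ := hk
    rcases (mem_cls_iff h hA ha u).1 hu with rfl | hc
    · simp at hne
    · have hnp : ¬ perp pr S a u := fun hp => hne (hp φ hq)
      have h1 := (hP a u ⟨φ, hq⟩ (hc.isCtr h ha) hnp).2
      exact (mem_cls_iff h hA ha a).2 (Or.inr (hc.trans (h1.symm h)))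

private theorem SP_M1 (h : TS pr S) (hP : PerpSymm pr S) (hA : AddClosed pr S) {a₀ : A}
    (ha : ctr S a₀) (hH : Hyp pr S a₀) {x : A} {f f' : B} (hx : Conn pr S a₀ x)
    (h1 : (x, f) ∈ S) (h2 : (x, f') ∈ S) : ∃ l : F, f' = l • f := by
  obtain ⟨b, ψ, hb, hbf, -⟩ := h.partner x f h1
  have hnp : ¬ perp pr S x b := fun hp => hbf (hp f h1)
  have hxb : Conn pr S x b := (hP x b ⟨f, h1⟩ ⟨ψ, hb⟩ hnp).2
  have hOb : Conn pr S a₀ b := hx.trans hxb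
  obtain ⟨l, hl⟩ : ∃ l, l * pr b f = pr b f' := ⟨pr b f' / pr b f, by field_simp⟩
  refine ⟨l, ?_⟩
  by_contra hne
  have hθ : (1 : F) • f' + (-l) • f ≠ 0 := by
    intro e
    apply hne
    rw [one_smul, neg_smul, ← sub_eq_add_neg, sub_eq_zero] at e
    exact e
  have hS := h.lin h2 h1 1 (-l) hθ
  refine h.xorL (cls pr S a₀) (SP_xor_hyp h hP hA ha) x _ hS
    ((mem_cls_iff h hA ha x).2 (Or.inr hx)) ?_
  intro u hu
  rcases (mem_cls_iff h hA ha u).1 hu with rfl | hc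
  · simp
  · obtain ⟨m, hm⟩ := hH x b u hx hOb hc hnp
    have e1 := hm f h1
    have e2 := hm f' h2
    simp only [map_sub, map_smul, LinearMap.sub_apply, LinearMap.smul_apply, smul_eq_mul] at e1 e2
    simp only [map_add, map_smul, smul_eq_mul]
    linear_combination e2 - l * e1 - m * hl

theorem exists_polarity (h : TS pr S) (h2 : (2 : F) ≠ 0) (hP : PerpSymm pr S) (hA : AddClosed pr S)
    {a₀ : A} (ha : ctr S a₀) (hH : Hyp pr S a₀) :
    ∃ π : A → B, (∀ x, Conn pr S a₀ x → (x, π x) ∈ S) ∧ (∀ x, ¬ Conn pr S a₀ x → π x = 0) ∧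
      (∀ x y, Conn pr S a₀ x → Conn pr S a₀ y → pr y (π x) = - pr x (π y)) ∧
      (∀ x φ, Conn pr S a₀ x → (x, φ) ∈ S → ∃ l : F, φ = l • π x) := by
  classical
  have hch : ∀ x : A, ∃ f : B, (Conn pr S a₀ x → (x, f) ∈ S) ∧ (¬ Conn pr S a₀ x → f = 0) := by
    intro x
    by_cases hx : Conn pr S a₀ x
    · obtain ⟨f, hf⟩ := hx.isCtr h ha
      exact ⟨f, fun _ => hf, fun hn => absurd hx hn⟩
    · exact ⟨0, fun hc => absurd hc hx, fun _ => rfl⟩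
  choose f hf1 hf0 using hch
  obtain ⟨W, hWdef⟩ : ∃ W, W = cls pr S a₀ := ⟨_, rfl⟩
  obtain ⟨G, hG⟩ : ∃ G : A → A →ₗ[F] F, ∀ x y, G x y = pr y (f x) :=
    ⟨fun x => pr.flip (f x), fun _ _ => rfl⟩
  have hW : ∀ x, x ∈ W ↔ x = 0 ∨ Conn pr S a₀ x := by
    intro x; rw [hWdef]; exact mem_cls_iff h hA ha x
  have hperp : ∀ x y, Conn pr S a₀ x → (perp pr S x y ↔ G x y = 0) := by
    intro x y hx
    constructor
    · intro hp; rw [hG]; exact hp _ (hf1 x hx)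
    · intro e φ hφ
      obtain ⟨l, rfl⟩ := SP_M1 h hP hA ha hH hx (hf1 x hx) hφ
      rw [hG] at e
      rw [map_smul, smul_eq_mul, e, mul_zero]
  have h0 : ¬ Conn pr S a₀ 0 := fun hc => hc.ne_zero h ha rfl
  have hself : ∀ x ∈ W, G x x = 0 := by
    intro x hx
    rcases (hW x).1 hx with rfl | hc
    · simp
    · rw [hG]; exact h.iso _ _ (hf1 x hc)
  have hsym : ∀ x ∈ W, ∀ y ∈ W, G x y = 0 → G y x = 0 := by
    intro x hx y hy e
    rcases (hW x).1 hx with rfl | hcx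
    · simp
    · rcases (hW y).1 hy with rfl | hcy
      · rw [hG, hf0 0 h0]; simp
      · exact (hperp y x hcy).1 (SP_perp_comm hP (hcx.isCtr h ha) (hcy.isCtr h ha)
          ((hperp x y hcx).2 e))
  have hnd : ∀ x ∈ W, x ≠ 0 → ∃ b ∈ W, G x b ≠ 0 := by
    intro x hx hx0
    have hc : Conn pr S a₀ x := ((hW x).1 hx).resolve_left hx0
    obtain ⟨b, ψ, hb, hbf, -⟩ := h.partner x _ (hf1 x hc)
    have hnp : ¬ perp pr S x b := fun hp => hbf (hp _ (hf1 x hc))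
    have hxb := (hP x b ⟨_, hf1 x hc⟩ ⟨ψ, hb⟩ hnp).2
    exact ⟨b, (hW b).2 (Or.inr (hc.trans hxb)), by rw [hG]; exact hbf⟩
  obtain ⟨d, hd0, hd⟩ := SP_cocycle W G h2 hself hsym hnd ((hW a₀).2 (Or.inr (Conn.refl _)))
    ((Conn.refl a₀).ne_zero h ha)
  refine ⟨fun x => d x • f x, ?_, ?_, ?_, ?_⟩
  · intro x hx
    have := h.smul _ _ (hf1 x hx) 1 (d x) one_ne_zero
      (hd0 x ((hW x).2 (Or.inr hx)) (hx.ne_zero h ha))
    rwa [one_smul] at this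
  · intro x hx
    simp [hf0 x hx]
  · intro x y hx hy
    have := hd x ((hW x).2 (Or.inr hx)) y ((hW y).2 (Or.inr hy)) (hx.ne_zero h ha)
      (hy.ne_zero h ha)
    rw [hG, hG] at this
    simp only [map_smul, smul_eq_mul]
    exact this
  · intro x φ hx hφ
    obtain ⟨l, rfl⟩ := SP_M1 h hP hA ha hH hx (hf1 x hx) hφ
    refine ⟨l / d x, ?_⟩
    show l • f x = (l / d x) • (d x • f x)
    rw [smul_smul, div_mul_cancel₀ _ (hd0 x ((hW x).2 (Or.inr hx)) (hx.ne_zero h ha))]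

end Cfsg.Agent.Lib.Helper97.McL
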