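import Cfsg.Agent.Lib.Helper97.McL.Defs
import Cfsg.Agent.Lib.Helper95.Symp

set_option autoImplicit false

/-! Rung SPB of the MCL ladder (helper56). -/

namespace Cfsg.Agent.Lib.Helper97.McL

open Cfsg.Agent.Lib.Helper95

variable {K V : Type*} [Field K] [AddCommGroup V] [Module K V]

theorem range_eq_sp [FiniteDimensional K V] (W : Submodule K V) (X : Set (V × Module.Dual K V))
    (hX : ∀ a φ, (a, φ) ∈ X → a ∈ W ∧ a ≠ 0 ∧ φ a = 0)
    (π : V → Module.Dual K V)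
    (h1 : ∀ x ∈ W, x ≠ 0 → ∀ l : K, l ≠ 0 → (x, l • π x) ∈ X)
    (h2 : ∀ x ∈ W, ∀ y ∈ W, π x y = - π y x)
    (h3 : ∀ x φ, (x, φ) ∈ X → ∃ l : K, φ = l • π x)
    (h4 : ∀ x ∈ W, x ≠ 0 → ∃ y ∈ W, π x y ≠ 0)
    (ρ : ↥(Subgroup.closure (tvSet X)) →* (↥W ≃ₗ[K] ↥W))
    (hρ : ∀ (g : ↥(Subgroup.closure (tvSet X))) (v : ↥W),
      ((ρ g v : ↥W) : V) = (g : V ≃ₗ[K] V) (v : V)) :
    ∃ Bf : LinearMap.BilinForm K ↥W, Bf.IsAlt ∧ Bf.Nondegenerate ∧
      (ρ.range : Set (↥W ≃ₗ[K] ↥W)) = {f : ↥W ≃ₗ[K] ↥W | ∀ x y, Bf (f x) (f y) = Bf x y} := by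
  let Bf : LinearMap.BilinForm K ↥W := LinearMap.mk₂ K (fun x y : ↥W => π (x : V) (y : V))
    (by
      intro x x' y
      show π ((x : V) + (x' : V)) (y : V) = _
      rw [h2 _ (W.add_mem x.2 x'.2) _ y.2, h2 _ x.2 _ y.2, h2 _ x'.2 _ y.2, map_add]
      ring)
    (by
      intro c x y
      show π (c • (x : V)) (y : V) = _
      rw [h2 _ (W.smul_mem c x.2) _ y.2, h2 _ x.2 _ y.2, map_smul]
      simp)
    (by intro x y y'; simp)
    (by intro c x y; simp)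
  have hBf : ∀ x y : ↥W, Bf x y = π (x : V) (y : V) := fun _ _ => rfl
  have hAlt : Bf.IsAlt := by
    intro x
    rw [hBf]
    by_cases hx : (x : V) = 0
    · rw [hx, map_zero]
    · have := (hX _ _ (h1 _ x.2 hx 1 one_ne_zero)).2.2
      simpa using this
  have hL : Bf.SeparatingLeft := by
    intro x hx
    by_contra hx0
    obtain ⟨y, hy, hxy⟩ := h4 _ x.2 (fun hh => hx0 (Subtype.ext hh))
    exact hxy (hx ⟨y, hy⟩)
  have hnd : Bf.Nondegenerate := by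
    refine ⟨hL, ?_⟩
    intro y hy
    apply hL
    intro x
    rw [alt_swap hAlt, hy x, neg_zero]
  have hgen : ∀ (x : V) (φ : Module.Dual K V) (hxφ : (x, φ) ∈ X) (h0 : φ x = 0) (l : K),
      φ = l • π x →
      ρ ⟨LinearEquiv.transvection h0, Subgroup.subset_closure ⟨x, φ, hxφ, h0, rfl⟩⟩ =
        stv Bf hAlt ⟨x, (hX _ _ hxφ).1⟩ (-l) := by
    intro x φ hxφ h0 l hl
    ext v
    rw [hρ, stv_apply, alt_swap hAlt, hBf]
    simp [LinearMap.transvection.apply, hl]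
  refine ⟨Bf, hAlt, hnd, ?_⟩
  have hsub : ∀ g (hg : g ∈ Subgroup.closure (tvSet X)), ρ ⟨g, hg⟩ ∈ isoGrp Bf := by
    intro g hg
    induction hg using Subgroup.closure_induction with
    | mem x hx =>
      obtain ⟨a, φ, haφ, h0, rfl⟩ := hx
      obtain ⟨l, hl⟩ := h3 _ _ haφ
      rw [hgen a φ haφ h0 l hl]
      exact stv_mem_isoGrp hAlt _ _
    | one =>
      have : (⟨1, Subgroup.one_mem _⟩ : ↥(Subgroup.closure (tvSet X))) = 1 := rfl
      rw [this, map_one]; exact Subgroup.one_mem _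
    | mul x y hx hy ihx ihy =>
      have : (⟨x * y, Subgroup.mul_mem _ hx hy⟩ : ↥(Subgroup.closure (tvSet X))) =
          ⟨x, hx⟩ * ⟨y, hy⟩ := rfl
      rw [this, map_mul]; exact Subgroup.mul_mem _ ihx ihy
    | inv x hx ih =>
      have : (⟨x⁻¹, Subgroup.inv_mem _ hx⟩ : ↥(Subgroup.closure (tvSet X))) = ⟨x, hx⟩⁻¹ := rfl
      rw [this, map_inv]; exact Subgroup.inv_mem _ ih
  ext f
  constructor
  · rintro ⟨g, rfl⟩
    exact hsub g.1 g.2
  · intro hf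
    refine isoGrp_le_of_stv_mem hAlt hnd ρ.range ?_ hf
    intro v c
    by_cases hv : v = 0
    · rw [hv, stv_zero_left]; exact Subgroup.one_mem _
    by_cases hc : c = 0
    · have : stv Bf hAlt v c = 1 := by ext x; simp [hc]
      rw [this]; exact Subgroup.one_mem _
    have hvV : (v : V) ≠ 0 := fun hh => hv (Subtype.ext hh)
    have hmem := h1 _ v.2 hvV (-c) (neg_ne_zero.2 hc)
    have h0 := (hX _ _ hmem).2.2
    refine ⟨⟨LinearEquiv.transvection h0, Subgroup.subset_closure ⟨_, _, hmem, h0, rfl⟩⟩, ?_⟩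
    rw [hgen _ _ hmem h0 (-c) rfl, neg_neg]

end Cfsg.Agent.Lib.Helper97.McL
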