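import Cfsg.Agent.Lib.Helper97.McL.Basic

/-! Rung T3 of the S5075 ladder: the orbits of centres span independent subspaces. -/

set_option autoImplicit false
set_option linter.unusedSimpArgs false

namespace Cfsg.Agent.Lib.Helper97.McL

variable {F A B : Type*} [Field F] [AddCommGroup A] [Module F A] [AddCommGroup B] [Module F B]
variable {pr : A →ₗ[F] B →ₗ[F] F} {S : Set (A × B)}

private theorem T3_not_mem (h : TS pr S) {s : A} {φ : B} (hs : s ∈ comK pr S) : (s, φ) ∉ S := by
  intro hq
  exact h.xorL (comK pr S) (fun a φ hq => Or.inr fun u hu => hu a φ hq) s φ hq hs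
    (fun u hu => hu s φ hq)

/-- centres of different orbits are perpendicular. -/
private theorem T3_O2 (hP : PerpSymm pr S) {a c : A} (ha : ctr S a) (hc : ctr S c)
    (hn : ¬ Conn pr S a c) : perp pr S a c := by
  by_contra hp
  exact hn (hP a c ha hc hp).2

private theorem T3_list (h : TS pr S) {x : A} (hx : x ∈ Submodule.span F {a | ctr S a}) :
    ∃ l : List A, (∀ y ∈ l, ctr S y) ∧ l.sum = x := by
  induction hx using Submodule.span_induction with
  | mem y hy => exact ⟨[y], by simpa using hy, by simp⟩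
  | zero => exact ⟨[], by simp, by simp⟩
  | add y z _ _ hy hz =>
    obtain ⟨l₁, h1, e1⟩ := hy
    obtain ⟨l₂, h2, e2⟩ := hz
    refine ⟨l₁ ++ l₂, ?_, by simp [e1, e2]⟩
    intro y hy
    rcases List.mem_append.1 hy with hy | hy
    · exact h1 y hy
    · exact h2 y hy
  | smul k y _ hy =>
    obtain ⟨l, h1, e1⟩ := hy
    by_cases hk : k = 0
    · exact ⟨[], by simp, by simp [hk]⟩
    · refine ⟨l.map (fun y => k • y), ?_, ?_⟩
      · intro y hy
        obtain ⟨z, hz, rfl⟩ := List.mem_map.1 hy
        obtain ⟨φ, hφ⟩ := h1 z hz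
        exact ⟨_, h.smul _ _ hφ k 1 hk one_ne_zero⟩
      · rw [← e1, List.smul_sum]

private theorem T3_pr_sum (l : List A) (ξ : B) (hl : ∀ y ∈ l, pr y ξ = 0) : pr l.sum ξ = 0 := by
  induction l with
  | nil => simp
  | cons y l ih =>
    rw [List.sum_cons, map_add, LinearMap.add_apply, hl y (by simp),
      ih (fun z hz => hl z (by simp [hz])), add_zero]

private theorem T3_sum (h : TS pr S) (hP : PerpSymm pr S) (hA : AddClosed pr S) :
    ∀ (n : ℕ) (l : List A), l.length = n → (∀ y ∈ l, ctr S y) → l.sum ∈ comK pr S →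
      l.sum = 0 := by
  classical
  intro n
  induction n using Nat.strong_induction_on with
  | _ n ih =>
    intro l hl hc hs
    cases l with
    | nil => simp
    | cons y l' =>
      have hy : ctr S y := hc y (by simp)
      have hc' : ∀ z ∈ l', ctr S z := fun z hz => hc z (by simp [hz])
      simp only [List.length_cons] at hl
      by_cases hex : ∃ y' ∈ l', Conn pr S y y'
      · obtain ⟨y', hy', hyy⟩ := hex
        have e1 : y' + (l'.erase y').sum = l'.sum := List.sum_erase hy'
        have e2 : (l'.erase y').length = l'.length - 1 := List.length_erase_of_mem hy'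
        have hpos : 0 < l'.length := List.length_pos_of_mem hy'
        have hc'' : ∀ z ∈ l'.erase y', ctr S z := fun z hz => hc' z (List.mem_of_mem_erase hz)
        by_cases h0 : y + y' = 0
        · have e3 : (y :: l').sum = (l'.erase y').sum := by
            rw [List.sum_cons, ← e1, ← add_assoc, h0, zero_add]
          rw [e3] at hs ⊢
          exact ih _ (by omega) _ rfl hc'' hs
        · have e3 : (y :: l').sum = ((y + y') :: l'.erase y').sum := by
            rw [List.sum_cons, List.sum_cons, ← e1, add_assoc]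
          rw [e3] at hs ⊢
          refine ih _ (by simp only [List.length_cons]; omega) _ rfl ?_ hs
          intro z hz
          rcases List.mem_cons.1 hz with rfl | hz
          · exact (hA y y' hy hyy h0).isCtr h hy
          · exact hc'' z hz
      · exfalso
        push Not at hex
        obtain ⟨φ, hφ⟩ := hy
        refine T3_not_mem h ?_ hφ
        intro x ξ hx
        by_cases hyx : Conn pr S y x
        · have e1 := hs x ξ hx
          rw [List.sum_cons, map_add, LinearMap.add_apply, T3_pr_sum l' ξ ?_, add_zero] at e1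
          · exact e1
          · intro z hz
            exact T3_O2 hP ⟨ξ, hx⟩ (hc' z hz) (fun hh => hex z hz (hyx.trans hh)) ξ hx
        · exact T3_O2 hP ⟨ξ, hx⟩ ⟨φ, hφ⟩ (fun hh => hyx (hh.symm h)) ξ hx

theorem disjoint_span_comK (h : TS pr S) (hP : PerpSymm pr S) (hA : AddClosed pr S) :
    Disjoint (Submodule.span F {a | ctr S a}) (comK pr S) := by
  rw [Submodule.disjoint_def]
  intro x hx hk
  obtain ⟨l, hl, rfl⟩ := T3_list h hx
  exact T3_sum h hP hA _ l rfl hl hk

theorem disjoint_cls_clsK (h : TS pr S) (hP : PerpSymm pr S) (hA : AddClosed pr S) {a₀ : A}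
    (ha : ctr S a₀) : Disjoint (cls pr S a₀) (clsK pr S a₀) := by
  rw [Submodule.disjoint_def]
  intro r hr hk
  by_contra hr0
  have hrc : Conn pr S a₀ r := ((mem_cls_iff h hA ha r).1 hr).resolve_left hr0
  obtain ⟨ρ, hρ⟩ := hrc.isCtr h ha
  have key : ∀ x ξ, (x, ξ) ∈ S → ∀ u ∈ cls pr S a₀ ⊓ clsK pr S a₀, pr u ξ = 0 := by
    intro x ξ hx u hu
    by_cases hc : Conn pr S a₀ x
    · exact hu.2 x ξ hx hc
    · rcases (mem_cls_iff h hA ha u).1 hu.1 with rfl | hu1
      · simp
      · exact T3_O2 hP ⟨ξ, hx⟩ (hu1.isCtr h ha) (fun hh => hc (hu1.trans (hh.symm h))) ξ hx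
  exact h.xorL (cls pr S a₀ ⊓ clsK pr S a₀) (fun x ξ hx => Or.inr (key x ξ hx)) r ρ hρ ⟨hr, hk⟩
    (key r ρ hρ)

private theorem T3_cls_le_span (h : TS pr S) {a : A} (ha : ctr S a) :
    cls pr S a ≤ Submodule.span F {a | ctr S a} :=
  Submodule.span_mono fun _ hx => Conn.isCtr h hx ha

private theorem T3_cls_le_clsK (h : TS pr S) (hP : PerpSymm pr S) {a b : A} (ha : ctr S a)
    (hb : ctr S b) (hn : ¬ Conn pr S a b) : cls pr S a ≤ clsK pr S b := by
  refine Submodule.span_le.2 ?_
  intro x hx y φ hy hby
  have hx' : Conn pr S a x := hx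
  exact T3_O2 hP ⟨φ, hy⟩ (hx'.isCtr h ha)
    (fun hh => hn (hx'.trans ((hby.trans hh).symm h))) φ hy

theorem indep_cls (h : TS pr S) (hP : PerpSymm pr S) (hA : AddClosed pr S) {n : ℕ} (a : Fin n → A)
    (ha : ∀ j, ctr S (a j)) (hne : ∀ i j, i ≠ j → ¬ Conn pr S (a i) (a j)) :
    iSupIndep (Fin.cons (comK pr S) (fun j => cls pr S (a j)) : Fin (n + 1) → Submodule F A) := by
  intro i
  induction i using Fin.cases with
  | zero =>
    refine (disjoint_span_comK h hP hA).symm.mono_right ?_
    refine iSup₂_le ?_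
    intro j hj
    induction j using Fin.cases with
    | zero => exact absurd rfl hj
    | succ j => exact T3_cls_le_span h (ha j)
  | succ i =>
    refine (disjoint_cls_clsK h hP hA (ha i)).mono_right ?_
    refine iSup₂_le ?_
    intro j hj
    induction j using Fin.cases with
    | zero =>
      intro x hx y φ hy _
      exact hx y φ hy
    | succ j =>
      have hji : j ≠ i := fun e => hj (by rw [e])
      exact T3_cls_le_clsK h hP (ha j) (ha i) (hne j i hji)

theorem iSup_cls (h : TS pr S) {n : ℕ} (a : Fin n → A) (ha : ∀ j, ctr S (a j))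
    (hall : ∀ c, ctr S c → ∃ j, Conn pr S (a j) c) :
    ⨆ j, cls pr S (a j) = Submodule.span F {a | ctr S a} := by
  apply le_antisymm
  · exact iSup_le fun j => T3_cls_le_span h (ha j)
  · refine Submodule.span_le.2 ?_
    intro c hc
    obtain ⟨j, hj⟩ := hall c hc
    exact (le_iSup (fun j => cls pr S (a j)) j) (Submodule.subset_span hj)

end Cfsg.Agent.Lib.Helper97.McL
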