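import Cfsg.Agent.Lib.Helper97.McL.Basic

/-! Rung THIN of the S5075 ladder: an orbit is of linear type or of symplectic type. -/

set_option autoImplicit false

namespace Cfsg.Agent.Lib.Helper97.McL

variable {F A B : Type*} [Field F] [AddCommGroup A] [Module F A] [AddCommGroup B] [Module F B]
variable {pr : A →ₗ[F] B →ₗ[F] F} {S : Set (A × B)}

private theorem TH_comm (hP : PerpSymm pr S) {a c : A} (ha : ctr S a) (hc : ctr S c)
    (h : perp pr S a c) : perp pr S c a := by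
  by_contra hn
  exact (hP c a hc ha hn).1 h

private theorem TH_ex {a c : A} (h : ¬ perp pr S a c) : ∃ φ, (a, φ) ∈ S ∧ pr c φ ≠ 0 := by
  by_contra hn
  apply h
  intro φ hφ
  by_contra hne
  exact hn ⟨φ, hφ, hne⟩

private theorem TH_RL (h : TS pr S) {b v w : A} {ψ1 : B} (h1 : (b, ψ1) ∈ S) (hv : pr v ψ1 ≠ 0)
    (hk : ∀ ψ, (b, ψ) ∈ S → pr v ψ = 0 → pr w ψ = 0) :
    ∃ l : F, perp pr S b (w - l • v) := by
  obtain ⟨l, hl⟩ : ∃ l, l * pr v ψ1 = pr w ψ1 := ⟨pr w ψ1 / pr v ψ1, by field_simp⟩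
  refine ⟨l, ?_⟩
  intro ψ hψ
  obtain ⟨c, hc⟩ : ∃ c, c * pr v ψ1 = pr v ψ := ⟨pr v ψ / pr v ψ1, by field_simp⟩
  have e : pr w ψ = c * pr w ψ1 := by
    by_cases hz : (1 : F) • ψ + (-c) • ψ1 = 0
    · rw [one_smul, neg_smul, ← sub_eq_add_neg, sub_eq_zero] at hz
      rw [hz, map_smul, smul_eq_mul]
    · have hS := h.lin hψ h1 1 (-c) hz
      have e1 : pr v ((1 : F) • ψ + (-c) • ψ1) = 0 := by
        simp only [map_add, map_smul, smul_eq_mul]
        linear_combination (-1 : F) * hc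
      have e2 := hk _ hS e1
      simp only [map_add, map_smul, smul_eq_mul] at e2
      linear_combination e2
  simp only [map_sub, map_smul, LinearMap.sub_apply, LinearMap.smul_apply, smul_eq_mul]
  linear_combination e - c * hl + l * hc

private theorem TH_L1 (h : TS pr S) (hP : PerpSymm pr S) {a b x : A} (ha : ctr S a) (hb : ctr S b)
    (hab : ¬ perp pr S a b) (hx : perp pr S a x) : ∃ l : F, perp pr S b (x - l • a) := by
  have hba : ¬ perp pr S b a := (hP a b ha hb hab).1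
  obtain ⟨φ, hφ, hbφ⟩ := TH_ex hab
  obtain ⟨ψ0, hψ0, haψ0⟩ := TH_ex hba
  exact TH_RL h hψ0 haψ0 (fun ψ hψ e => hx ψ (h.half hφ hψ hbφ e))

private theorem TH_L2 (h : TS pr S) (hP : PerpSymm pr S) {a b b' : A} (ha : ctr S a)
    (hb : ctr S b) (hb' : ctr S b') (hab : ¬ perp pr S a b)
    (hn : ∀ m : F, ¬ perp pr S a (b' - m • b)) :
    ∃ ψ, (b, ψ) ∈ S ∧ (b', ψ) ∈ S ∧ pr a ψ ≠ 0 := by
  have hba : ¬ perp pr S b a := (hP a b ha hb hab).1
  have hbb' : ¬ perp pr S b b' := by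
    intro hp
    obtain ⟨l, hl⟩ := TH_L1 h hP hb ha hba hp
    exact hn l hl
  obtain ⟨ψ1, hψ1, hb'ψ1⟩ := TH_ex hbb'
  have hb'b : ¬ perp pr S b' b := (hP b b' hb hb' hbb').1
  obtain ⟨η, hη, hbη⟩ := TH_ex hb'b
  by_contra hcon
  have hk : ∀ ψ, (b, ψ) ∈ S → pr b' ψ = 0 → pr a ψ = 0 := by
    intro ψ hψ e
    by_contra hne
    exact hcon ⟨ψ, hψ, h.half hη hψ hbη e, hne⟩
  obtain ⟨l, hp⟩ := TH_RL h hψ1 hb'ψ1 hk
  have hl0 : l ≠ 0 := by
    rintro rfl
    rw [zero_smul, sub_zero] at hp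
    exact hba hp
  obtain ⟨m, hm⟩ := TH_L1 h hP hb ha hba hp
  obtain ⟨m', hm'⟩ : ∃ m', l * m' = m := ⟨m / l, by field_simp⟩
  have h1 := perp_sub hm (perp_self h a)
  have e : a - l • b' - m • b - a = (-l) • (b' - (-m') • b) := by
    rw [← hm']; module
  rw [e] at h1
  have h2 := perp_smul (-l)⁻¹ h1
  rw [inv_smul_smul₀ (neg_ne_zero.mpr hl0)] at h2
  exact hn _ h2

private theorem TH_L3 (h : TS pr S) (hP : PerpSymm pr S) {a b b' x : A} (ha : ctr S a)
    (hb : ctr S b) (hb' : ctr S b') (hab : ¬ perp pr S a b)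
    (hn : ∀ m : F, ¬ perp pr S a (b' - m • b)) (hax : perp pr S a x) (hbx : perp pr S b x) :
    perp pr S b' x := by
  have hab' : ¬ perp pr S a b' := by simpa using hn 0
  obtain ⟨ψ, h1, h2, h3⟩ := TH_L2 h hP ha hb hb' hab hn
  obtain ⟨l, hl⟩ := TH_L1 h hP ha hb' hab' hax
  have e1 := hl ψ h2
  have e2 := hbx ψ h1
  simp only [map_sub, map_smul, LinearMap.sub_apply, LinearMap.smul_apply, smul_eq_mul, e2,
    zero_sub, neg_eq_zero, mul_eq_zero] at e1
  have hl0 : l = 0 := e1.resolve_right h3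
  rw [hl0, zero_smul, sub_zero] at hl
  exact hl

private theorem TH_orb_add (h : TS pr S) (hA : AddClosed pr S) {a₀ x y : A} (ha : ctr S a₀)
    (hx : Conn pr S a₀ x) (hy : Conn pr S a₀ y) (hne : x + y ≠ 0) : Conn pr S a₀ (x + y) :=
  hx.trans (hA x y (hx.isCtr h ha) ((hx.symm h).trans hy) hne)

private theorem TH_L4a {a b d b₁ : A} (hab : ¬ perp pr S a b)
    (hn : ∀ m : F, ¬ perp pr S a (d - m • b)) :
    (∀ m : F, ¬ perp pr S a (b - m • b₁)) ∨ (∀ m : F, ¬ perp pr S a (d - m • b₁)) := by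
  by_cases hb : ∃ m : F, perp pr S a (b - m • b₁)
  · right
    obtain ⟨m, hm⟩ := hb
    have hm0 : m ≠ 0 := by
      rintro rfl
      rw [zero_smul, sub_zero] at hm
      exact hab hm
    intro m' hp
    obtain ⟨k, hk⟩ : ∃ k, k * m = m' := ⟨m' / m, by field_simp⟩
    apply hn k
    have e : d - k • b = (d - m' • b₁) - k • (b - m • b₁) := by
      rw [← hk]; module
    rw [e]
    exact perp_sub hp (perp_smul k hm)
  · left
    intro m hm
    exact hb ⟨m, hm⟩

private theorem TH_L4 (h : TS pr S) (hA : AddClosed pr S) {a₀ a b d b₁ b₂ : A} (ha : ctr S a₀)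
    (Ob : Conn pr S a₀ b) (Od : Conn pr S a₀ d) (hab : ¬ perp pr S a b)
    (hn : ∀ m : F, ¬ perp pr S a (d - m • b)) :
    ∃ b', Conn pr S a₀ b' ∧ (∀ m : F, ¬ perp pr S a (b' - m • b₁)) ∧
      (∀ m : F, ¬ perp pr S a (b' - m • b₂)) := by
  obtain ⟨e₁, O1, n1⟩ : ∃ e, Conn pr S a₀ e ∧ ∀ m : F, ¬ perp pr S a (e - m • b₁) := by
    rcases TH_L4a (b₁ := b₁) hab hn with h1 | h1
    · exact ⟨b, Ob, h1⟩
    · exact ⟨d, Od, h1⟩
  obtain ⟨e₂, O2, n2⟩ : ∃ e, Conn pr S a₀ e ∧ ∀ m : F, ¬ perp pr S a (e - m • b₂) := by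
    rcases TH_L4a (b₁ := b₂) hab hn with h1 | h1
    · exact ⟨b, Ob, h1⟩
    · exact ⟨d, Od, h1⟩
  by_cases c1 : ∃ m : F, perp pr S a (e₁ - m • b₂)
  · by_cases c2 : ∃ m : F, perp pr S a (e₂ - m • b₁)
    · obtain ⟨m1, c1⟩ := c1
      obtain ⟨m2, c2⟩ := c2
      have p1 : ∀ m : F, ¬ perp pr S a (e₁ + e₂ - m • b₁) := by
        intro m hp
        apply n1 (m - m2)
        have e : e₁ - (m - m2) • b₁ = (e₁ + e₂ - m • b₁) - (e₂ - m2 • b₁) := by module
        rw [e]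
        exact perp_sub hp c2
      have p2 : ∀ m : F, ¬ perp pr S a (e₁ + e₂ - m • b₂) := by
        intro m hp
        apply n2 (m - m1)
        have e : e₂ - (m - m1) • b₂ = (e₁ + e₂ - m • b₂) - (e₁ - m1 • b₂) := by module
        rw [e]
        exact perp_sub hp c1
      have hne : e₁ + e₂ ≠ 0 := by
        intro e
        apply p1 0
        rw [e, zero_smul, sub_zero]
        exact perp_zero a
      exact ⟨e₁ + e₂, TH_orb_add h hA ha O1 O2 hne, p1, p2⟩
    · exact ⟨e₂, O2, fun m hm => c2 ⟨m, hm⟩, n2⟩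
  · exact ⟨e₁, O1, n1, fun m hm => c1 ⟨m, hm⟩⟩

private theorem TH_L5 (h : TS pr S) (hP : PerpSymm pr S) (hA : AddClosed pr S) {a₀ a b d x : A}
    (ha : ctr S a₀) (Oa : Conn pr S a₀ a) (Ob : Conn pr S a₀ b) (Od : Conn pr S a₀ d)
    (hab : ¬ perp pr S a b) (hn : ∀ m : F, ¬ perp pr S a (d - m • b))
    (Ox : Conn pr S a₀ x) (hax : perp pr S a x) : ∃ l : F, x = l • a := by
  have ca := Oa.isCtr h ha
  have cb := Ob.isCtr h ha
  obtain ⟨l, hl⟩ := TH_L1 h hP ca cb hab hax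
  refine ⟨l, ?_⟩
  by_contra hne
  obtain ⟨x', hx'⟩ : ∃ x', x' = x - l • a := ⟨_, rfl⟩
  rw [← hx'] at hl
  have hx'0 : x' ≠ 0 := by rw [hx']; exact sub_ne_zero.mpr hne
  have hax' : perp pr S a x' := by
    rw [hx']; exact perp_sub hax (perp_smul l (perp_self h a))
  have Ox' : Conn pr S a₀ x' := by
    have hmem : x' ∈ cls pr S a₀ := by
      rw [hx']
      exact Submodule.sub_mem _ ((mem_cls_iff h hA ha x).2 (Or.inr Ox))
        (Submodule.smul_mem _ _ ((mem_cls_iff h hA ha a).2 (Or.inr Oa)))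
    exact ((mem_cls_iff h hA ha x').1 hmem).resolve_left hx'0
  have cx' := Ox'.isCtr h ha
  have key : ∀ b'', Conn pr S a₀ b'' → ¬ perp pr S a b'' → perp pr S b'' x' := by
    intro b'' Ob'' hab''
    obtain ⟨b', Ob', n1, n2⟩ := TH_L4 (b₁ := b) (b₂ := b'') h hA ha Ob Od hab hn
    have cb' := Ob'.isCtr h ha
    have cb'' := Ob''.isCtr h ha
    have p1 : perp pr S b' x' := TH_L3 h hP ca cb cb' hab n1 hax' hl
    have hab' : ¬ perp pr S a b' := by simpa using n1 0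
    have n3 : ∀ m : F, ¬ perp pr S a (b'' - m • b') := by
      intro m hp
      by_cases hm : m = 0
      · rw [hm, zero_smul, sub_zero] at hp
        exact hab'' hp
      · apply n2 m⁻¹
        have e : b' - m⁻¹ • b'' = (-m⁻¹) • (b'' - m • b') := by
          rw [smul_sub, smul_smul, neg_mul, inv_mul_cancel₀ hm]; module
        rw [e]
        exact perp_smul _ hp
    exact TH_L3 h hP ca cb' cb'' hab' n3 hax' p1
  have key2 : ∀ y, Conn pr S a₀ y → perp pr S x' y := by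
    intro y Oy
    by_cases hay : perp pr S a y
    · have hyb : ¬ perp pr S a (y + b) := by
        intro hp
        apply hab
        have := perp_sub hp hay
        rwa [add_sub_cancel_left] at this
      have hne' : y + b ≠ 0 := by
        intro e
        rw [e] at hyb
        exact hyb (perp_zero a)
      have Oyb := TH_orb_add h hA ha Oy Ob hne'
      have p1 := TH_comm hP (Oyb.isCtr h ha) cx' (key _ Oyb hyb)
      have p2 := TH_comm hP cb cx' (key b Ob hab)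
      have := perp_sub p1 p2
      rwa [add_sub_cancel_right] at this
    · exact TH_comm hP (Oy.isCtr h ha) cx' (key y Oy hay)
  obtain ⟨f, hf⟩ := cx'
  obtain ⟨c, χ, hc, hcf, -⟩ := h.partner x' f hf
  have hnp : ¬ perp pr S x' c := fun hp => hcf (hp f hf)
  have h1 := (hP x' c ⟨f, hf⟩ ⟨χ, hc⟩ hnp).2
  exact hnp (key2 c (Ox'.trans h1))

private theorem TH_transport (h : TS pr S) {a₀ a a' : A} (hc : Conn pr S a a')
    (hT : ∀ x, Conn pr S a₀ x → perp pr S a x → ∃ l : F, x = l • a) :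
    ∀ x, Conn pr S a₀ x → perp pr S a' x → ∃ l : F, x = l • a' := by
  induction hc with
  | refl => exact hT
  | @step b x₀ ξ _ hx ih =>
    intro x Ox hp
    have hz := h.iso _ _ hx
    obtain ⟨y, hy⟩ : ∃ y, y = x + (-1 * pr x ξ) • x₀ := ⟨_, rfl⟩
    have Oy : Conn pr S a₀ y := by rw [hy]; exact Conn.stepk h Ox hx (-1)
    have e : x = y + pr y ξ • x₀ := by
      rw [hy]
      simp only [map_add, map_smul, LinearMap.add_apply, LinearMap.smul_apply, hz, smul_eq_mul,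
        mul_zero, add_zero]
      module
    rw [e, perp_move h hx] at hp
    obtain ⟨l, hl⟩ := ih y Oy hp
    refine ⟨l, ?_⟩
    rw [e, hl]
    simp only [map_smul, LinearMap.smul_apply, smul_eq_mul]
    module
  | @smul b k _ hk ih =>
    intro x Ox hp
    rw [perp_smul_left h hk] at hp
    obtain ⟨l, hl⟩ := ih x Ox hp
    refine ⟨l / k, ?_⟩
    rw [smul_smul, div_mul_cancel₀ _ hk]
    exact hl

theorem thin_or_hyp (h : TS pr S) (hP : PerpSymm pr S) (hA : AddClosed pr S) {a₀ : A}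
    (ha : ctr S a₀) : Thin pr S a₀ ∨ Hyp pr S a₀ := by
  by_cases hH : Hyp pr S a₀
  · exact Or.inr hH
  · left
    unfold Hyp at hH
    simp only [not_forall, not_exists] at hH
    obtain ⟨a, b, d, Oa, Ob, Od, hab, hn⟩ := hH
    intro a' x Oa' Ox hp
    exact TH_transport h ((Oa.symm h).trans Oa')
      (fun x Ox hp => TH_L5 h hP hA ha Oa Ob Od hab hn Ox hp) x Ox hp

end Cfsg.Agent.Lib.Helper97.McL
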