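import Cfsg.Agent.Lib.Helper97.McL.Defs

/-!
Rung TV of the ladder for S5075 (written by helper71): an element of order `p` of `GL(V)` over the
prime field whose fixed space is a hyperplane is a transvection.
-/

set_option autoImplicit false

namespace Cfsg.Agent.Lib.Helper97.McL

theorem exists_transvection {p : ℕ} [Fact p.Prime] {V : Type*} [AddCommGroup V] [Module (ZMod p) V]
    [Finite V] (t : V ≃ₗ[ZMod p] V) (ho : orderOf t = p)
    (hr : Module.finrank (ZMod p) ↥(LinearMap.ker ((t : V →ₗ[ZMod p] V) - LinearMap.id)) + 1 =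
        Module.finrank (ZMod p) V) :
    ∃ (a : V) (φ : Module.Dual (ZMod p) V) (h : φ a = 0), a ≠ 0 ∧ φ ≠ 0 ∧
      t = LinearEquiv.transvection h := by
  have hmem : t ∈ LinearEquiv.dilatransvections (ZMod p) V := by
    rw [LinearEquiv.mem_dilatransvections_iff_finrank]
    have := LinearMap.finrank_range_add_finrank_ker ((t : V →ₗ[ZMod p] V) - LinearMap.id)
    omega
  obtain ⟨f, v, hfv⟩ := hmem
  have happ : ∀ x, t x = x + f x • v := by
    intro x
    have := congrArg (fun g : V →ₗ[ZMod p] V => g x) hfv
    simpa [LinearMap.transvection.apply] using this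
  have ht1 : t ≠ 1 := by
    intro h
    rw [h, orderOf_one] at ho
    exact (Fact.out : p.Prime).one_lt.ne ho
  have hv : v ≠ 0 := by
    rintro rfl
    apply ht1
    ext x
    simp [happ]
  have hf : f ≠ 0 := by
    rintro rfl
    apply ht1
    ext x
    simp [happ]
  have hfv0 : f v = 0 := by
    by_contra hc
    have hpow : ∀ n : ℕ, (t ^ n) v = (1 + f v) ^ n • v := by
      intro n
      induction n with
      | zero => simp
      | succ n ih =>
        rw [pow_succ', LinearEquiv.mul_apply, ih, map_smul, happ, pow_succ, mul_smul, add_smul,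
          one_smul]
    have h1 := hpow p
    have h0 : t ^ p = 1 := orderOf_dvd_iff_pow_eq_one.mp (dvd_of_eq ho)
    rw [h0, ZMod.pow_card] at h1
    have h2 : f v • v = 0 := by
      have h3 : (1 : V ≃ₗ[ZMod p] V) v = v := rfl
      rw [h3, add_smul, one_smul] at h1
      exact left_eq_add.mp h1
    rcases smul_eq_zero.mp h2 with h | h
    · exact hc h
    · exact hv h
  refine ⟨v, f, hfv0, hv, hf, ?_⟩
  ext x
  rw [happ, LinearEquiv.transvection.apply]

end Cfsg.Agent.Lib.Helper97.McL
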