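import Cfsg.Agent.Lib.Helper97.McL.Defs
import Cfsg.Prelude.Def_Solvable

/-!
Rung XOR of the ladder for S5075 (written by helper71).
-/

set_option autoImplicit false

namespace Cfsg.Agent.Lib.Helper97.McL

/-- the elements of `H` acting trivially on `U` and on `V / U` -/
private def xorN {p : ℕ} {V : Type*} [AddCommGroup V] [Module (ZMod p) V]
    (H : Subgroup (V ≃ₗ[ZMod p] V)) (U : Submodule (ZMod p) V) : Subgroup ↥H where
  carrier := {g | (∀ u ∈ U, (g : V ≃ₗ[ZMod p] V) u = u) ∧ ∀ v, (g : V ≃ₗ[ZMod p] V) v - v ∈ U}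
  one_mem' := by
    refine ⟨fun u _ => rfl, fun v => ?_⟩
    show v - v ∈ U
    rw [sub_self]; exact U.zero_mem
  mul_mem' := by
    rintro g h ⟨hg1, hg2⟩ ⟨hh1, hh2⟩
    refine ⟨fun u hu => ?_, fun v => ?_⟩
    · show (g : V ≃ₗ[ZMod p] V) ((h : V ≃ₗ[ZMod p] V) u) = u
      rw [hh1 u hu, hg1 u hu]
    · show (g : V ≃ₗ[ZMod p] V) ((h : V ≃ₗ[ZMod p] V) v) - v ∈ U
      have e : (g : V ≃ₗ[ZMod p] V) ((h : V ≃ₗ[ZMod p] V) v) - v =
          ((g : V ≃ₗ[ZMod p] V) ((h : V ≃ₗ[ZMod p] V) v) - (h : V ≃ₗ[ZMod p] V) v) +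
            ((h : V ≃ₗ[ZMod p] V) v - v) := by abel
      rw [e]
      exact U.add_mem (hg2 _) (hh2 _)
  inv_mem' := by
    rintro g ⟨hg1, hg2⟩
    refine ⟨fun u hu => ?_, fun v => ?_⟩
    · show (g : V ≃ₗ[ZMod p] V).symm u = u
      rw [LinearEquiv.symm_apply_eq, hg1 u hu]
    · show (g : V ≃ₗ[ZMod p] V).symm v - v ∈ U
      have h1 := hg2 ((g : V ≃ₗ[ZMod p] V).symm v)
      rw [LinearEquiv.apply_symm_apply] at h1
      have e : (g : V ≃ₗ[ZMod p] V).symm v - v = -(v - (g : V ≃ₗ[ZMod p] V).symm v) := by abel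
      rw [e]
      exact U.neg_mem h1

theorem xorL_Sg {p : ℕ} [Fact p.Prime] {V : Type*} [AddCommGroup V] [Module (ZMod p) V]
    (H : Subgroup (V ≃ₗ[ZMod p] V)) (hgen : H = Subgroup.closure (tvSet (Sg H)))
    (hOp : Cfsg.pCore p ↥H = ⊥) (U : Submodule (ZMod p) V)
    (hU : ∀ a φ, (a, φ) ∈ Sg H → a ∈ U ∨ ∀ u ∈ U, prV (ZMod p) V u φ = 0)
    (a : V) (φ : Module.Dual (ZMod p) V) (h : (a, φ) ∈ Sg H) (ha : a ∈ U) :
    ¬ ∀ u ∈ U, prV (ZMod p) V u φ = 0 := by
  intro hk
  -- every element of `H` stabilizes `U`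
  have hstab : ∀ g ∈ H, (∀ u ∈ U, g u ∈ U) ∧ (∀ u ∈ U, g.symm u ∈ U) := by
    intro g hg
    rw [hgen] at hg
    induction hg using Subgroup.closure_induction with
    | mem x hx =>
      obtain ⟨a', φ', hS, h0, rfl⟩ := hx
      constructor
      · intro u hu
        rw [LinearEquiv.transvection.apply]
        rcases hU a' φ' hS with h1 | h1
        · exact U.add_mem hu (U.smul_mem _ h1)
        · have : φ' u = 0 := h1 u hu
          rw [this, zero_smul, add_zero]; exact hu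
      · intro u hu
        rw [LinearEquiv.transvection.symm_eq h0 (by simp [h0]), LinearEquiv.transvection.apply]
        rcases hU a' φ' hS with h1 | h1
        · exact U.add_mem hu (U.smul_mem _ (U.neg_mem h1))
        · have : φ' u = 0 := h1 u hu
          rw [this, zero_smul, add_zero]; exact hu
    | one => exact ⟨fun u hu => hu, fun u hu => hu⟩
    | mul x y _ _ hx hy =>
      exact ⟨fun u hu => hx.1 _ (hy.1 u hu), fun u hu => hy.2 _ (hx.2 u hu)⟩
    | inv x _ hx => exact ⟨hx.2, hx.1⟩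
  have hnormal : (xorN H U).Normal := by
    constructor
    rintro n ⟨hn1, hn2⟩ g
    refine ⟨fun u hu => ?_, fun v => ?_⟩
    · show (g : V ≃ₗ[ZMod p] V) ((n : V ≃ₗ[ZMod p] V) ((g : V ≃ₗ[ZMod p] V).symm u)) = u
      rw [hn1 _ ((hstab g g.2).2 u hu), LinearEquiv.apply_symm_apply]
    · show (g : V ≃ₗ[ZMod p] V) ((n : V ≃ₗ[ZMod p] V) ((g : V ≃ₗ[ZMod p] V).symm v)) - v ∈ U
      have h1 := (hstab g g.2).1 _ (hn2 ((g : V ≃ₗ[ZMod p] V).symm v))
      rw [map_sub, LinearEquiv.apply_symm_apply] at h1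
      exact h1
  have hpg : IsPGroup p (xorN H U) := by
    rintro ⟨g, hg1, hg2⟩
    refine ⟨1, ?_⟩
    rw [pow_one]
    apply Subtype.ext
    apply Subtype.ext
    show (g : V ≃ₗ[ZMod p] V) ^ p = 1
    have hpow : ∀ (k : ℕ) (v : V), ((g : V ≃ₗ[ZMod p] V) ^ k) v =
        v + k • ((g : V ≃ₗ[ZMod p] V) v - v) := by
      intro k v
      induction k with
      | zero => simp
      | succ k ih =>
        rw [pow_succ', LinearEquiv.mul_apply, ih, map_add, map_nsmul, hg1 _ (hg2 v), succ_nsmul]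
        abel
    ext v
    rw [hpow, ← Nat.cast_smul_eq_nsmul (ZMod p), ZMod.natCast_self, zero_smul, add_zero]
    rfl
  have hbot : xorN H U = ⊥ := by
    rw [eq_bot_iff, ← hOp]
    exact le_sSup ⟨hnormal, hpg⟩
  obtain ⟨ha0, hφ0, h0, htH⟩ := h
  have hmem : (⟨_, htH⟩ : ↥H) ∈ xorN H U := by
    refine ⟨fun u hu => ?_, fun v => ?_⟩
    · show LinearEquiv.transvection h0 u = u
      have : φ u = 0 := hk u hu
      rw [LinearEquiv.transvection.apply]
      show u + φ u • a = u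
      rw [this, zero_smul, add_zero]
    · show LinearEquiv.transvection h0 v - v ∈ U
      rw [LinearEquiv.transvection.apply, add_sub_cancel_left]
      exact U.smul_mem _ ha
  rw [hbot, Subgroup.mem_bot] at hmem
  have ht1 : LinearEquiv.transvection h0 = 1 := congrArg Subtype.val hmem
  apply hφ0
  ext x
  have h2 := congrArg (fun e : V ≃ₗ[ZMod p] V => e x) ht1
  simp only [LinearEquiv.transvection.apply] at h2
  have h3 : φ x • a = 0 := by
    have h4 : x + φ x • a = x := h2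
    exact add_eq_left.mp h4
  rcases smul_eq_zero.mp h3 with h | h
  · exact h
  · exact absurd h ha0

end Cfsg.Agent.Lib.Helper97.McL
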