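import Cfsg.Agent.Lib.Helper97.McL.Basic
import Cfsg.Agent.Lib.Helper97.McL.P
import Cfsg.Agent.Lib.Helper97.McL.D2
import Cfsg.Agent.Lib.Helper97.McL.NS
import Cfsg.Agent.Lib.Helper97.McL.ADD
import Cfsg.Agent.Lib.Helper97.McL.T3
import Cfsg.Agent.Lib.Helper97.McL.THIN
import Cfsg.Agent.Lib.Helper97.McL.SP
import Cfsg.Agent.Lib.Helper97.McL.TV
import Cfsg.Agent.Lib.Helper97.McL.XOR
import Cfsg.Agent.Lib.Helper97.McL.PART
import Cfsg.Agent.Lib.Helper97.McL.FLD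
import Cfsg.Agent.Lib.Helper97.McL.RES
import Cfsg.Agent.Lib.Helper97.McL.SLB
import Cfsg.Agent.Lib.Helper97.McL.SPB
import Cfsg.Agent.Lib.Helper97.McL.DEC

/-! Final assembly for S5075. -/

set_option autoImplicit false

namespace Cfsg.Agent.Lib.Helper97.McL

open Module

section general

variable {K V : Type*} [Field K] [AddCommGroup V] [Module K V]

/-- The conclusion for one block. -/
def BlockOK (W : Submodule K V) (G : Subgroup (V ≃ₗ[K] V)) : Prop :=
  ∃ ρ : ↥G →* (↥W ≃ₗ[K] ↥W),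
    (∀ (h : ↥G) (v : ↥W), ((ρ h v : ↥W) : V) = (h : V ≃ₗ[K] V) (v : V)) ∧
    ((ρ.range : Set (↥W ≃ₗ[K] ↥W)) =
        {f : ↥W ≃ₗ[K] ↥W | LinearMap.det (f : ↥W →ₗ[K] ↥W) = 1} ∨
      ∃ B : LinearMap.BilinForm K ↥W, B.IsAlt ∧ B.Nondegenerate ∧
        (ρ.range : Set (↥W ≃ₗ[K] ↥W)) = {f : ↥W ≃ₗ[K] ↥W | ∀ x y, B (f x) (f y) = B x y})

theorem asm_aux {n : ℕ} (hn : 1 ≤ n) (H : Subgroup (V ≃ₗ[K] V)) (W : Fin (n + 1) → Submodule K V)
    (X : Fin n → Set (V × Module.Dual K V))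
    (hint : DirectSum.IsInternal W)
    (hH : H = Subgroup.closure (⋃ j, tvSet (X j)))
    (hXW : ∀ j a φ, (a, φ) ∈ X j → a ∈ W j.succ)
    (hXk : ∀ j a φ, (a, φ) ∈ X j → ∀ i, i ≠ j.succ → ∀ v ∈ W i, φ v = 0)
    (hblock : ∀ j, ∀ ρ : ↥(Subgroup.closure (tvSet (X j))) →* (↥(W j.succ) ≃ₗ[K] ↥(W j.succ)),
      (∀ (h : ↥(Subgroup.closure (tvSet (X j)))) (v : ↥(W j.succ)),
        ((ρ h v : ↥(W j.succ)) : V) = (h : V ≃ₗ[K] V) (v : V)) →
      ((ρ.range : Set (↥(W j.succ) ≃ₗ[K] ↥(W j.succ))) =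
        {f : ↥(W j.succ) ≃ₗ[K] ↥(W j.succ) | LinearMap.det (f : ↥(W j.succ) →ₗ[K] ↥(W j.succ)) = 1} ∨
      ∃ B : LinearMap.BilinForm K ↥(W j.succ), B.IsAlt ∧ B.Nondegenerate ∧
        (ρ.range : Set (↥(W j.succ) ≃ₗ[K] ↥(W j.succ))) =
          {f : ↥(W j.succ) ≃ₗ[K] ↥(W j.succ) | ∀ x y, B (f x) (f y) = B x y})) :
    ∃ (n : ℕ) (W : Fin (n + 1) → Submodule K V) (G : Fin n → Subgroup (V ≃ₗ[K] V)),
      1 ≤ n ∧ DirectSum.IsInternal W ∧
      (∀ h ∈ H, ∀ i, (W i).map (h : V →ₗ[K] V) = W i) ∧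
      (∀ j, G j ≤ H ∧ ((G j).subgroupOf H).Normal) ∧ ⨆ j, G j = H ∧
      (∀ j, G j ⊓ (⨆ j' ∈ {j' : Fin n | j' ≠ j}, G j') = ⊥) ∧
      (∀ j j', j ≠ j' → ∀ a ∈ G j, ∀ b ∈ G j', a * b = b * a) ∧
      (∀ j, ∀ h ∈ G j, ∀ i : Fin (n + 1), i ≠ j.succ → ∀ v ∈ W i, h v = v) ∧
      (∀ j, ∃ ρ : ↥(G j) →* (↥(W j.succ) ≃ₗ[K] ↥(W j.succ)),
        (∀ (h : ↥(G j)) (v : ↥(W j.succ)), ((ρ h v : ↥(W j.succ)) : V) = (h : V ≃ₗ[K] V) (v : V)) ∧
        ((ρ.range : Set (↥(W j.succ) ≃ₗ[K] ↥(W j.succ))) =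
            {f : ↥(W j.succ) ≃ₗ[K] ↥(W j.succ) | LinearMap.det (f : ↥(W j.succ) →ₗ[K] ↥(W j.succ)) = 1} ∨
          ∃ B : LinearMap.BilinForm K ↥(W j.succ), B.IsAlt ∧ B.Nondegenerate ∧
            (ρ.range : Set (↥(W j.succ) ≃ₗ[K] ↥(W j.succ))) =
              {f : ↥(W j.succ) ≃ₗ[K] ↥(W j.succ) | ∀ x y, B (f x) (f y) = B x y})) := by
  obtain ⟨d1, d2, d3, d4, d5, d6⟩ := decomp_core H W X hint hH hXW hXk
  refine ⟨n, W, fun j => Subgroup.closure (tvSet (X j)), hn, hint, d1, d2, d3, d4, d5, d6, ?_⟩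
  intro j
  have hinv : ∀ g ∈ Subgroup.closure (tvSet (X j)), ∀ w ∈ W j.succ, g w ∈ W j.succ := by
    intro g hg w hw
    have h1 := d1 g ((d2 j).1 hg) j.succ
    rw [← h1]
    exact Submodule.mem_map_of_mem hw
  obtain ⟨ρ, hρ⟩ := exists_resHom (W j.succ) (Subgroup.closure (tvSet (X j))) hinv
  exact ⟨ρ, hρ, hblock j ρ hρ⟩

theorem range_of_bot (W : Submodule K V) (hW : W = ⊥) (G : Subgroup (V ≃ₗ[K] V))
    (ρ : ↥G →* (↥W ≃ₗ[K] ↥W)) :
    (ρ.range : Set (↥W ≃ₗ[K] ↥W)) =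
      {f : ↥W ≃ₗ[K] ↥W | LinearMap.det (f : ↥W →ₗ[K] ↥W) = 1} := by
  subst hW
  have hs : ∀ f : (↥(⊥ : Submodule K V) ≃ₗ[K] ↥(⊥ : Submodule K V)), f = 1 := by
    intro f
    apply LinearEquiv.ext
    intro v
    exact Subsingleton.elim _ _
  ext f
  rw [hs f]
  constructor
  · intro _
    simp
  · intro _
    exact Subgroup.one_mem _

end general

section main

variable {p : ℕ} [Fact p.Prime] {V : Type*} [AddCommGroup V] [Module (ZMod p) V] [Finite V]

theorem asm_main (hp : Odd p)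
    (H : Subgroup (V ≃ₗ[ZMod p] V)) (T : Set (V ≃ₗ[ZMod p] V)) (hHT : H = Subgroup.closure T)
    (hT : ∀ t ∈ T, orderOf t = p ∧
      Module.finrank (ZMod p) ↥(LinearMap.ker ((t : V →ₗ[ZMod p] V) - LinearMap.id)) + 1 =
        Module.finrank (ZMod p) V)
    (hOp : Cfsg.pCore p ↥H = ⊥) :
    ∃ (n : ℕ) (W : Fin (n + 1) → Submodule (ZMod p) V) (K : Fin n → Subgroup (V ≃ₗ[ZMod p] V)),
      1 ≤ n ∧ DirectSum.IsInternal W ∧
      (∀ h ∈ H, ∀ i, (W i).map (h : V →ₗ[ZMod p] V) = W i) ∧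
      (∀ j, K j ≤ H ∧ ((K j).subgroupOf H).Normal) ∧ ⨆ j, K j = H ∧
      (∀ j, K j ⊓ (⨆ j' ∈ {j' : Fin n | j' ≠ j}, K j') = ⊥) ∧
      (∀ j j', j ≠ j' → ∀ a ∈ K j, ∀ b ∈ K j', a * b = b * a) ∧
      (∀ j, ∀ h ∈ K j, ∀ i : Fin (n + 1), i ≠ j.succ → ∀ v ∈ W i, h v = v) ∧
      (∀ j, ∃ ρ : ↥(K j) →* (↥(W j.succ) ≃ₗ[ZMod p] ↥(W j.succ)),
        (∀ (h : ↥(K j)) (v : ↥(W j.succ)), ((ρ h v : ↥(W j.succ)) : V) = (h : V ≃ₗ[ZMod p] V) (v : V)) ∧
        ((ρ.range : Set (↥(W j.succ) ≃ₗ[ZMod p] ↥(W j.succ))) =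
            {f : ↥(W j.succ) ≃ₗ[ZMod p] ↥(W j.succ) | LinearMap.det (f : ↥(W j.succ) →ₗ[ZMod p] ↥(W j.succ)) = 1} ∨
          ∃ B : LinearMap.BilinForm (ZMod p) ↥(W j.succ), B.IsAlt ∧ B.Nondegenerate ∧
            (ρ.range : Set (↥(W j.succ) ≃ₗ[ZMod p] ↥(W j.succ))) = {f : ↥(W j.succ) ≃ₗ[ZMod p] ↥(W j.succ) | ∀ x y, B (f x) (f y) = B x y})) := by
  classical
  have : FiniteDimensional (ZMod p) V := Module.Finite.of_finite
  have : Finite (Module.Dual (ZMod p) V) := Finite.of_injective _ DFunLike.coe_injective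
  set S := Sg H with hS
  set pr := prV (ZMod p) V with hpr
  -- generation
  have hgen : H = Subgroup.closure (tvSet S) := by
    apply le_antisymm
    · rw [hHT, Subgroup.closure_le]
      intro t ht
      obtain ⟨a, φ, h, ha, hφ, rfl⟩ := exists_transvection t (hT t ht).1 (hT t ht).2
      apply Subgroup.subset_closure
      refine ⟨a, φ, ⟨ha, hφ, h, ?_⟩, h, rfl⟩
      rw [hHT]
      exact Subgroup.subset_closure ht
    · rw [Subgroup.closure_le]
      rintro t ⟨a, φ, ⟨_, _, h', hm⟩, h, rfl⟩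
      exact hm
  have hTS : TS pr S := ts_Sg H (partner_Sg H hOp) (xorL_Sg H hgen hOp)
  have h2 : (2 : ZMod p) ≠ 0 := by
    intro h
    have h3 : ((2 : ℕ) : ZMod p) = 0 := by exact_mod_cast h
    rw [ZMod.natCast_eq_zero_iff] at h3
    have := (Nat.prime_dvd_prime_iff_eq (Fact.out : p.Prime) Nat.prime_two).1 h3
    subst this
    exact absurd hp (by decide)
  have hP := perpSymm hTS
  have hD := diam2 hTS hP
  have hN := noShift hTS h2 hP
  have hA := addClosed hTS h2 hP hD hN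
  have hTS' := hTS.swap
  have hP' := perpSymm hTS'
  have hD' := diam2 hTS' hP'
  have hN' := noShift hTS' h2 hP'
  have hA' := addClosed hTS' h2 hP' hD' hN'
  have hspan : Submodule.span (ZMod p) {a | ctr S a} ⊔ comK pr S = ⊤ :=
    span_sup_comK S (disjoint_span_comK hTS' hP' hA')
  -- the orbits
  let C := {a : V // ctr S a}
  let r : Setoid C :=
    ⟨fun a b => Conn pr S a.1 b.1,
      ⟨fun a => Conn.refl _, fun h => Conn.symm hTS h, fun h1 h2 => Conn.trans h1 h2⟩⟩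
  let Q := Quotient r
  have : Finite Q := Quotient.finite _
  obtain ⟨n, ⟨e⟩⟩ := Finite.exists_equiv_fin Q
  let a : Fin n → V := fun j => (Quotient.out (e.symm j)).1
  have ha : ∀ j, ctr S (a j) := fun j => (Quotient.out (e.symm j)).2
  have hne : ∀ i j, i ≠ j → ¬ Conn pr S (a i) (a j) := by
    intro i j hij hc
    apply hij
    have h1 : (Quotient.out (e.symm i)) ≈ (Quotient.out (e.symm j)) := hc
    have h3 := Quotient.sound h1
    rw [Quotient.out_eq, Quotient.out_eq] at h3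
    exact e.symm.injective h3
  have hall : ∀ c, ctr S c → ∃ j, Conn pr S (a j) c := by
    intro c hc
    refine ⟨e (Quotient.mk r ⟨c, hc⟩), ?_⟩
    have h1 : Quotient.out (e.symm (e (Quotient.mk r ⟨c, hc⟩))) ≈ (⟨c, hc⟩ : C) := by
      rw [Equiv.symm_apply_apply]
      exact Quotient.mk_out _
    exact h1
  rcases Nat.eq_zero_or_pos n with hn0 | hn0
  · -- no centre at all
    subst hn0
    have hSe : ∀ c, ¬ ctr S c := fun c hc => (hall c hc).elim fun j _ => j.elim0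
    have hHbot : H = ⊥ := by
      rw [hgen, Subgroup.closure_eq_bot_iff]
      rintro t ⟨a, φ, hq, _⟩
      exact absurd ⟨φ, hq⟩ (hSe a)
    refine asm_aux (n := 1) le_rfl H (Fin.cons ⊤ (fun _ => ⊥)) (fun _ => ∅) ?_ ?_ ?_ ?_ ?_
    · apply DirectSum.isInternal_submodule_of_iSupIndep_of_iSup_eq_top
      · intro i
        refine Fin.cases ?_ (fun j => ?_) i
        · rw [disjoint_iff]
          have : (⨆ j, ⨆ (_ : j ≠ (0 : Fin 2)),
              (Fin.cons ⊤ (fun _ => ⊥) : Fin 2 → Submodule (ZMod p) V) j) = ⊥ := by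
            rw [eq_bot_iff]
            refine iSup_le fun j => iSup_le fun hj => ?_
            obtain ⟨k, rfl⟩ := Fin.exists_succ_eq.2 hj
            simp
          rw [this]
          simp
        · simp
      · rw [eq_top_iff]
        exact le_iSup (Fin.cons ⊤ (fun _ => ⊥) : Fin 2 → Submodule (ZMod p) V) 0
    · rw [hHbot]
      symm
      rw [Subgroup.closure_eq_bot_iff]
      intro t ht
      simp only [Set.mem_iUnion] at ht
      obtain ⟨_, a, φ, hq, _⟩ := ht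
      exact absurd hq (Set.notMem_empty _)
    · intro j a φ hq
      exact absurd hq (Set.notMem_empty _)
    · intro j a φ hq
      exact absurd hq (Set.notMem_empty _)
    · intro j ρ _
      exact Or.inl (range_of_bot _ (by simp) _ ρ)
  · -- the main case
    let W : Fin (n + 1) → Submodule (ZMod p) V := Fin.cons (comK pr S) (fun j => cls pr S (a j))
    let X : Fin n → Set (V × Module.Dual (ZMod p) V) := fun j => {q | q ∈ S ∧ Conn pr S (a j) q.1}
    have hW : ∀ j : Fin n, W j.succ = cls pr S (a j) := fun j => by simp [W]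
    have hmemW : ∀ (j : Fin n) (x : V), x ∈ W j.succ ↔ x = 0 ∨ Conn pr S (a j) x := by
      intro j x
      rw [hW]
      exact mem_cls_iff hTS hA (ha j) x
    refine asm_aux (n := n) hn0 H W X ?_ ?_ ?_ ?_ ?_
    · apply DirectSum.isInternal_submodule_of_iSupIndep_of_iSup_eq_top
      · exact indep_cls hTS hP hA a ha hne
      · have h1 : (⨆ i, W i) = W 0 ⊔ ⨆ j : Fin n, W j.succ := by
          apply le_antisymm
          · refine iSup_le fun i => ?_
            refine Fin.cases ?_ (fun j => ?_) i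
            · exact le_sup_left
            · exact le_sup_of_le_right (le_iSup (fun j : Fin n => W j.succ) j)
          · exact sup_le (le_iSup W 0) (iSup_le fun j => le_iSup W j.succ)
        rw [h1]
        have h3 : (⨆ j : Fin n, W j.succ) = Submodule.span (ZMod p) {a | ctr S a} := by
          rw [← iSup_cls hTS a ha hall]
          exact iSup_congr hW
        rw [h3, sup_comm]
        exact hspan
    · rw [hgen]
      congr 1
      ext t
      simp only [Set.mem_iUnion]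
      constructor
      · rintro ⟨x, φ, hq, h, rfl⟩
        obtain ⟨j, hj⟩ := hall x ⟨φ, hq⟩
        exact ⟨j, x, φ, ⟨hq, hj⟩, h, rfl⟩
      · rintro ⟨j, x, φ, ⟨hq, _⟩, h, rfl⟩
        exact ⟨x, φ, hq, h, rfl⟩
    · rintro j x φ ⟨_, hc⟩
      exact (hmemW j x).2 (Or.inr hc)
    · rintro j x φ ⟨hq, hc⟩ i hi v hv
      revert hi hv
      refine Fin.cases ?_ (fun j' => ?_) i
      · intro _ hv
        exact hv x φ hq
      · intro hi hv
        rcases (hmemW j' v).1 hv with rfl | hv'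
        · simp
        · by_contra hne0
          have hjj : j' ≠ j := fun e => hi (by rw [e])
          have hnp : ¬ perp pr S x v := fun hp' => hne0 (hp' φ hq)
          have h3 := (hP x v ⟨φ, hq⟩ (hv'.isCtr hTS (ha j')) hnp).2
          exact hne j j' (Ne.symm hjj) ((hc.trans h3).trans (hv'.symm hTS))
    · intro j ρ hρ
      have hXS : ∀ x φ, (x, φ) ∈ X j → (x, φ) ∈ S := fun x φ h => h.1
      rcases thin_or_hyp hTS hP hA (ha j) with hT' | hH'
      · left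
        refine range_eq_sl (W j.succ) (X j) (fun x φ hq => (hmemW j x).2 (Or.inr hq.2)) ?_ ρ hρ
        intro x θ hx hθ hθx
        obtain ⟨φ, hq, hφ⟩ := hall_of_thin hTS hA (ha j) hT' (W j.succ) (hW j) x θ hx hθ hθx
        refine ⟨φ, ⟨hq, ?_⟩, hφ⟩
        rcases (hmemW j x).1 x.2 with h0 | hc
        · exact absurd (Subtype.ext h0) hx
        · exact hc
      · right
        obtain ⟨π, p1, p2, p3, p4⟩ := exists_polarity hTS h2 hP hA (ha j) hH'
        refine range_eq_sp (W j.succ) (X j) ?_ π ?_ ?_ ?_ ?_ ρ hρ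
        · rintro x φ ⟨hq, hc⟩
          exact ⟨(hmemW j x).2 (Or.inr hc), hTS.neL _ _ hq, hTS.iso _ _ hq⟩
        · intro x hx hx0 l hl
          rcases (hmemW j x).1 hx with h0 | hc
          · exact absurd h0 hx0
          · have := hTS.smul _ _ (p1 x hc) 1 l one_ne_zero hl
            rw [one_smul] at this
            exact ⟨this, hc⟩
        · intro x hx y hy
          rcases (hmemW j x).1 hx with rfl | hcx
          · have h0 : π 0 = 0 := p2 0 (fun hc => hc.ne_zero hTS (ha j) rfl)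
            simp [h0]
          · rcases (hmemW j y).1 hy with rfl | hcy
            · have h0 : π 0 = 0 := p2 0 (fun hc => hc.ne_zero hTS (ha j) rfl)
              simp [h0]
            · exact p3 x y hcx hcy
        · rintro x φ ⟨hq, hc⟩
          exact p4 x φ hc hq
        · intro x hx hx0
          rcases (hmemW j x).1 hx with h0 | hc
          · exact absurd h0 hx0
          · obtain ⟨b, ψ, hb, hb1, _⟩ := hTS.partner _ _ (p1 x hc)
            have hnp : ¬ perp pr S x b := fun hp' => hb1 (hp' _ (p1 x hc))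
            have h3 := (hP x b ⟨_, p1 x hc⟩ ⟨ψ, hb⟩ hnp).2
            exact ⟨b, (hmemW j b).2 (Or.inr (hc.trans h3)), hb1⟩

end main

end Cfsg.Agent.Lib.Helper97.McL
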