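import Mathlib

/-!
# Abstract transvection systems (for McLaughlin's theorem over a prime field, S5075)

`A`, `B` are two vector spaces with a pairing `pr`.  A pair `(a, φ)` stands for the
transvection `x ↦ x + ⟨x, φ⟩ a` of `A` (and `ψ ↦ ψ - ⟨a, ψ⟩ φ` of `B`).  `S` is the set of pairs
whose transvection lies in the group under study.  Everything is self-dual (`TS.swap`).
-/

set_option autoImplicit false

namespace Cfsg.Agent.Lib.Helper97.McL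

variable {F A B : Type*} [Field F] [AddCommGroup A] [Module F A] [AddCommGroup B] [Module F B]

/-- A transvection system. -/
structure TS (pr : A →ₗ[F] B →ₗ[F] F) (S : Set (A × B)) : Prop where
  iso : ∀ a φ, (a, φ) ∈ S → pr a φ = 0
  neL : ∀ a φ, (a, φ) ∈ S → a ≠ 0
  neR : ∀ a φ, (a, φ) ∈ S → φ ≠ 0
  smul : ∀ a φ, (a, φ) ∈ S → ∀ l m : F, l ≠ 0 → m ≠ 0 → (l • a, m • φ) ∈ S
  addL : ∀ a a' φ, (a, φ) ∈ S → (a', φ) ∈ S → a + a' ≠ 0 → (a + a', φ) ∈ S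
  addR : ∀ a φ φ', (a, φ) ∈ S → (a, φ') ∈ S → φ + φ' ≠ 0 → (a, φ + φ') ∈ S
  conj : ∀ x ξ a φ, (x, ξ) ∈ S → (a, φ) ∈ S → (a + pr a ξ • x, φ - pr x φ • ξ) ∈ S
  mul3 : ∀ a₁ φ₁ a₂ φ₂ a₃ φ₃ a φ, (a₁, φ₁) ∈ S → (a₂, φ₂) ∈ S → (a₃, φ₃) ∈ S →
    pr a₁ φ₂ = 0 → pr a₁ φ₃ = 0 → pr a₂ φ₁ = 0 → pr a₂ φ₃ = 0 → pr a₃ φ₁ = 0 → pr a₃ φ₂ = 0 →
    a ≠ 0 → φ ≠ 0 → pr a φ = 0 →
    (∀ x, pr x φ₁ • a₁ + pr x φ₂ • a₂ + pr x φ₃ • a₃ = pr x φ • a) →
    (∀ ψ, pr a₁ ψ • φ₁ + pr a₂ ψ • φ₂ + pr a₃ ψ • φ₃ = pr a ψ • φ) → (a, φ) ∈ S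
  partner : ∀ a φ, (a, φ) ∈ S → ∃ b ψ, (b, ψ) ∈ S ∧ pr b φ ≠ 0 ∧ pr a ψ ≠ 0
  xorL : ∀ U : Submodule F A, (∀ a φ, (a, φ) ∈ S → a ∈ U ∨ ∀ u ∈ U, pr u φ = 0) →
    ∀ a φ, (a, φ) ∈ S → a ∈ U → ¬ ∀ u ∈ U, pr u φ = 0
  xorR : ∀ U : Submodule F B, (∀ a φ, (a, φ) ∈ S → φ ∈ U ∨ ∀ u ∈ U, pr a u = 0) →
    ∀ a φ, (a, φ) ∈ S → φ ∈ U → ¬ ∀ u ∈ U, pr a u = 0

/-- `a` is a centre. -/
def ctr (S : Set (A × B)) (a : A) : Prop := ∃ φ, (a, φ) ∈ S

/-- `x ∈ a^⊥`: every axis belonging to the centre `a` kills `x`. -/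
def perp (pr : A →ₗ[F] B →ₗ[F] F) (S : Set (A × B)) (a x : A) : Prop :=
  ∀ φ, (a, φ) ∈ S → pr x φ = 0

/-- Orbit relation: `b` is obtained from `a` by transvections of the system and scalings. -/
inductive Conn (pr : A →ₗ[F] B →ₗ[F] F) (S : Set (A × B)) : A → A → Prop
  | refl (a : A) : Conn pr S a a
  | step {a b : A} (x : A) (ξ : B) : Conn pr S a b → (x, ξ) ∈ S → Conn pr S a (b + pr b ξ • x)
  | smul {a b : A} (l : F) : Conn pr S a b → l ≠ 0 → Conn pr S a (l • b)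

/-- The common kernel of all axes (`C_A(H)`). -/
def comK (pr : A →ₗ[F] B →ₗ[F] F) (S : Set (A × B)) : Submodule F A where
  carrier := {x | ∀ a φ, (a, φ) ∈ S → pr x φ = 0}
  add_mem' := by
    intro x y hx hy a φ h
    simp [hx a φ h, hy a φ h]
  zero_mem' := by
    intro a φ _
    simp
  smul_mem' := by
    intro c x hx a φ h
    simp [hx a φ h]

/-- The span of the orbit of `a₀`. -/
def cls (pr : A →ₗ[F] B →ₗ[F] F) (S : Set (A × B)) (a₀ : A) : Submodule F A :=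
  Submodule.span F {x | Conn pr S a₀ x}

/-- The common kernel of the axes belonging to the orbit of `a₀`. -/
def clsK (pr : A →ₗ[F] B →ₗ[F] F) (S : Set (A × B)) (a₀ : A) : Submodule F A where
  carrier := {x | ∀ a φ, (a, φ) ∈ S → Conn pr S a₀ a → pr x φ = 0}
  add_mem' := by
    intro x y hx hy a φ h hc
    simp [hx a φ h hc, hy a φ h hc]
  zero_mem' := by
    intro a φ _ _
    simp
  smul_mem' := by
    intro c x hx a φ h hc
    simp [hx a φ h hc]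

/-- The dual system. -/
def swp (S : Set (A × B)) : Set (B × A) := {q | (q.2, q.1) ∈ S}

/-- (P) the relation `perp` is symmetric on centres, and non-perpendicular centres are in the
same orbit. -/
def PerpSymm (pr : A →ₗ[F] B →ₗ[F] F) (S : Set (A × B)) : Prop :=
  ∀ a c, ctr S a → ctr S c → ¬ perp pr S a c → ¬ perp pr S c a ∧ Conn pr S a c

/-- (D2) two centres of the same orbit have a common non-perpendicular centre. -/
def Diam2 (pr : A →ₗ[F] B →ₗ[F] F) (S : Set (A × B)) : Prop :=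
  ∀ a b, ctr S a → Conn pr S a b → ∃ c, ctr S c ∧ ¬ perp pr S a c ∧ ¬ perp pr S b c

/-- (NS) two centres are never congruent modulo the common kernel. -/
def NoShift (pr : A →ₗ[F] B →ₗ[F] F) (S : Set (A × B)) : Prop :=
  ∀ a s, ctr S a → ctr S (a + s) → s ∈ comK pr S → s = 0

/-- (ADD) an orbit together with `0` is closed under addition. -/
def AddClosed (pr : A →ₗ[F] B →ₗ[F] F) (S : Set (A × B)) : Prop :=
  ∀ a b, ctr S a → Conn pr S a b → a + b ≠ 0 → Conn pr S a (a + b)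

/-- the orbit of `a₀` is of linear type: `a^⊥ ∩ W = ⟨a⟩`. -/
def Thin (pr : A →ₗ[F] B →ₗ[F] F) (S : Set (A × B)) (a₀ : A) : Prop :=
  ∀ a x, Conn pr S a₀ a → Conn pr S a₀ x → perp pr S a x → ∃ l : F, x = l • a

/-- the orbit of `a₀` is of symplectic type: `a^⊥ ∩ W` is a hyperplane of `W`. -/
def Hyp (pr : A →ₗ[F] B →ₗ[F] F) (S : Set (A × B)) (a₀ : A) : Prop :=
  ∀ a b d, Conn pr S a₀ a → Conn pr S a₀ b → Conn pr S a₀ d → ¬ perp pr S a b →
    ∃ m : F, perp pr S a (d - m • b)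

/-! ### The concrete system of a linear group -/

section concrete

variable {K V : Type*} [Field K] [AddCommGroup V] [Module K V]

/-- The evaluation pairing `V × V* → K`. -/
def prV (K V : Type*) [Field K] [AddCommGroup V] [Module K V] :
    V →ₗ[K] Module.Dual K V →ₗ[K] K :=
  (LinearMap.id : Module.Dual K V →ₗ[K] Module.Dual K V).flip

@[simp] lemma prV_apply (a : V) (φ : Module.Dual K V) : prV K V a φ = φ a := rfl

/-- The pairs `(a, φ)` whose transvection lies in `H`. -/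
def Sg (H : Subgroup (V ≃ₗ[K] V)) : Set (V × Module.Dual K V) :=
  {q | q.1 ≠ 0 ∧ q.2 ≠ 0 ∧ ∃ h : q.2 q.1 = 0, LinearEquiv.transvection h ∈ H}

/-- The transvections belonging to a set of pairs. -/
def tvSet (X : Set (V × Module.Dual K V)) : Set (V ≃ₗ[K] V) :=
  {t | ∃ a φ, (a, φ) ∈ X ∧ ∃ h : φ a = 0, t = LinearEquiv.transvection h}

end concrete

end Cfsg.Agent.Lib.Helper97.McL
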