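import Cfsg.Agent.Lib.Helper97.McL.Basic

/-! Rung FLD of the S5075 ladder: the pairs of a linear group over `ZMod p` form a
transvection system. -/

set_option autoImplicit false

namespace Cfsg.Agent.Lib.Helper97.McL

open Module

section field

variable {K V : Type*} [Field K] [AddCommGroup V] [Module K V]

theorem FLD_apply {a : V} {φ : Module.Dual K V} (h : φ a = 0) (x : V) :
    LinearEquiv.transvection h x = x + φ x • a := rfl

theorem FLD_mem_Sg {H : Subgroup (V ≃ₗ[K] V)} {a : V} {φ : Module.Dual K V} :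
    (a, φ) ∈ Sg H ↔ a ≠ 0 ∧ φ ≠ 0 ∧ ∃ h : φ a = 0, LinearEquiv.transvection h ∈ H := Iff.rfl

/-- membership in `Sg H` from an element of `H` with the right action. -/
theorem FLD_mem_of_apply {H : Subgroup (V ≃ₗ[K] V)} {a : V} {φ : Module.Dual K V} (ha : a ≠ 0)
    (hφ : φ ≠ 0) (h : φ a = 0) (g : V ≃ₗ[K] V) (hg : g ∈ H) (hga : ∀ x, g x = x + φ x • a) :
    (a, φ) ∈ Sg H := by
  refine ⟨ha, hφ, h, ?_⟩
  have : LinearEquiv.transvection h = g := by
    ext x
    rw [FLD_apply, hga]
  rw [this]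
  exact hg

theorem FLD_pow {a : V} {φ : Module.Dual K V} (h : φ a = 0) (n : ℕ) (x : V) :
    ((LinearEquiv.transvection h) ^ n) x = x + ((n : K) * φ x) • a := by
  induction n with
  | zero => simp
  | succ n ih =>
    rw [pow_succ', LinearEquiv.mul_apply, ih, FLD_apply]
    simp only [map_add, map_smul, h, smul_eq_mul, mul_zero, add_zero, Nat.cast_succ]
    module

end field

theorem ts_Sg {p : ℕ} [Fact p.Prime] {V : Type*} [AddCommGroup V] [Module (ZMod p) V]
    [Finite V] (H : Subgroup (V ≃ₗ[ZMod p] V))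
    (hpart : ∀ a φ, (a, φ) ∈ Sg H →
      ∃ b ψ, (b, ψ) ∈ Sg H ∧ prV (ZMod p) V b φ ≠ 0 ∧ prV (ZMod p) V a ψ ≠ 0)
    (hxor : ∀ U : Submodule (ZMod p) V,
      (∀ a φ, (a, φ) ∈ Sg H → a ∈ U ∨ ∀ u ∈ U, prV (ZMod p) V u φ = 0) →
      ∀ a φ, (a, φ) ∈ Sg H → a ∈ U → ¬ ∀ u ∈ U, prV (ZMod p) V u φ = 0) :
    TS (prV (ZMod p) V) (Sg H) where
  iso := fun a φ hq => hq.2.2.1
  neL := fun a φ hq => hq.1
  neR := fun a φ hq => hq.2.1
  smul := by
    rintro a φ ⟨ha, hφ, h, hm⟩ l m hl hm'
    refine FLD_mem_of_apply (smul_ne_zero hl ha) (smul_ne_zero hm' hφ) (by simp [h])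
      ((LinearEquiv.transvection h) ^ (l * m).val) (H.pow_mem hm _) ?_
    intro x
    rw [FLD_pow, ZMod.natCast_zmod_val]
    simp only [LinearMap.smul_apply, smul_eq_mul, smul_smul]
    congr 2
    ring
  addL := by
    rintro a a' φ ⟨ha, hφ, h, hm⟩ ⟨ha', _, h', hm'⟩ hne
    refine FLD_mem_of_apply hne hφ (by simp [h, h']) _ (H.mul_mem hm hm') ?_
    intro x
    rw [LinearEquiv.mul_apply, FLD_apply, FLD_apply]
    simp only [map_add, map_smul, h', smul_eq_mul, mul_zero, add_zero]
    module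
  addR := by
    rintro a φ φ' ⟨ha, hφ, h, hm⟩ ⟨_, _, h', hm'⟩ hne
    refine FLD_mem_of_apply ha hne (by simp [h, h']) _ (H.mul_mem hm hm') ?_
    intro x
    rw [LinearEquiv.mul_apply, FLD_apply, FLD_apply]
    simp only [map_add, map_smul, h, smul_eq_mul, mul_zero, add_zero, LinearMap.add_apply]
    module
  conj := by
    rintro x ξ a φ ⟨hx, hξ, h, hm⟩ ⟨ha, hφ, h', hm'⟩
    simp only [prV_apply]
    set g := LinearEquiv.transvection h with hg
    have hga : g a = a + ξ a • x := rfl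
    have hne1 : a + ξ a • x ≠ 0 := by
      rw [← hga]
      exact fun e => ha (by simpa using e)
    have hne2 : φ - φ x • ξ ≠ 0 := by
      intro e
      apply hφ
      ext y
      have e1 : (φ - φ x • ξ) (g y) = 0 := by rw [e]; simp
      rw [hg, FLD_apply] at e1
      simp only [LinearMap.sub_apply, LinearMap.smul_apply, map_add, map_smul, h, smul_eq_mul,
        mul_zero, add_zero] at e1
      simp only [LinearMap.zero_apply]
      linear_combination e1
    refine FLD_mem_of_apply hne1 hne2 ?_ (g * LinearEquiv.transvection h' * g⁻¹)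
      (H.mul_mem (H.mul_mem hm hm') (H.inv_mem hm)) ?_
    · simp only [LinearMap.sub_apply, LinearMap.smul_apply, map_add, map_smul, h, h', smul_eq_mul,
        mul_zero, add_zero]
      ring
    · intro y
      obtain ⟨z, rfl⟩ : ∃ z, g z = y := ⟨g⁻¹ y, by simp⟩
      simp only [LinearEquiv.mul_apply]
      have e0 : g⁻¹ (g z) = z := by simp
      rw [e0, FLD_apply h', hg, FLD_apply, FLD_apply]
      simp only [LinearMap.sub_apply, LinearMap.smul_apply, map_add, map_smul, h, smul_eq_mul,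
        mul_zero, add_zero]
      module
  mul3 := by
    rintro a₁ φ₁ a₂ φ₂ a₃ φ₃ a φ ⟨_, _, h1, m1⟩ ⟨_, _, h2, m2⟩ ⟨_, _, h3, m3⟩ e12 e13 e21 e23 e31 e32
      ha hφ hz i1 _
    simp only [prV_apply] at e12 e13 e21 e23 e31 e32 hz i1
    refine FLD_mem_of_apply ha hφ hz _ (H.mul_mem (H.mul_mem m1 m2) m3) ?_
    intro x
    rw [← i1 x]
    simp only [LinearEquiv.mul_apply, FLD_apply, map_add, map_smul, e12, e13, e21, e23, e31, e32,
      smul_eq_mul, mul_zero, add_zero]
    module
  partner := hpart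
  xorL := hxor
  xorR := by
    intro U hU a φ hq hφU hk
    refine hxor U.dualCoannihilator ?_ a φ hq ?_ ?_
    · intro a' φ' hq'
      rcases hU a' φ' hq' with h1 | h1
      · right
        intro u hu
        exact (Submodule.mem_dualCoannihilator _).1 hu φ' h1
      · left
        exact (Submodule.mem_dualCoannihilator _).2 h1
    · exact (Submodule.mem_dualCoannihilator _).2 hk
    · intro u hu
      exact (Submodule.mem_dualCoannihilator _).1 hu φ hφU

end Cfsg.Agent.Lib.Helper97.McL
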